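import Mathlib
import Cfsg.Agent.H6Inv

/-! Cyclic Sylow 2-subgroups give a subgroup of index 2 (helper6). -/

set_option autoImplicit false

namespace Cfsg.Agent.H6

/-- A finite cyclic group of even order has a subgroup of index 2. -/
lemma exists_index_two_of_isCyclic {P : Type*} [CommGroup P] [Finite P] [IsCyclic P]
    (h : Even (Nat.card P)) : ∃ H : Subgroup P, H.index = 2 := by
  refine ⟨(powMonoidHom 2 : P →* P).range, ?_⟩
  rw [IsCyclic.index_powMonoidHom_range]
  exact Nat.gcd_eq_right (even_iff_two_dvd.mp h)

/-- A finite group of even order with a cyclic Sylow 2-subgroup has a subgroup of index 2. -/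
theorem exists_index_two_of_cyclic_sylow {G : Type*} [Group G] [Finite G] (heven : Even (Nat.card G))
    (T : Sylow 2 G) (hT : IsCyclic (T : Subgroup G)) : ∃ H : Subgroup G, H.index = 2 := by
  have : Fact (Nat.Prime 2) := ⟨Nat.prime_two⟩
  have hp : (Nat.card G).minFac = 2 := (Nat.minFac_eq_two_iff _).mpr (even_iff_two_dvd.mp heven)
  have hT' : IsCyclic T := hT
  have hNC := hT'.normalizer_le_centralizer hp
  let f : G →* T := MonoidHom.transferSylow T hNC
  -- f is surjective
  have hsurj : Function.Surjective f := by
    intro y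
    obtain ⟨x, hx⟩ := (T.2.powEquiv' T.not_dvd_index).surjective y
    refine ⟨(x : G), ?_⟩
    have h1 := MonoidHom.transferSylow_eq_pow T hNC (x : G) x.2
    rw [← hx]
    show MonoidHom.transferSylow T hNC (x : G) = _
    rw [h1]
    apply Subtype.ext
    simp [IsPGroup.powEquiv']
  -- T has even order
  have hTeven : Even (Nat.card T) := by
    have h2 : 2 ∣ Nat.card G := even_iff_two_dvd.mp heven
    have := T.card_eq_multiplicity
    rw [even_iff_two_dvd, this]
    apply dvd_pow_self
    have : 0 < (Nat.card G).factorization 2 :=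
      Nat.Prime.factorization_pos_of_dvd Nat.prime_two Nat.card_pos.ne' h2
    omega
  have : IsMulCommutative T := ⟨⟨fun a b => Subtype.ext (hNC (Subgroup.le_normalizer b.2) a a.2)⟩⟩
  let _ : CommGroup T := { (inferInstance : Group T) with mul_comm := fun a b => mul_comm' a b }
  obtain ⟨H, hH⟩ := exists_index_two_of_isCyclic (P := T) hTeven
  refine ⟨H.comap f, ?_⟩
  rw [Subgroup.index_comap_of_surjective _ hsurj, hH]

/-- A finite cyclic group has at most one involution. -/
lemma eq_of_orderOf_two_of_isCyclic {P : Type*} [Group P] [Finite P] [IsCyclic P] {a b : P}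
    (ha : orderOf a = 2) (hb : orderOf b = 2) : a = b := by
  classical
  have : Fintype P := Fintype.ofFinite P
  by_contra hab
  have h2 := IsCyclic.card_pow_eq_one_le (α := P) (n := 2) (by norm_num)
  have ha' := orderOf_two_iff.mp ha
  have hb' := orderOf_two_iff.mp hb
  have hsub : ({1, a, b} : Finset P) ⊆ Finset.univ.filter (fun y : P => y ^ 2 = 1) := by
    intro y hy
    simp only [Finset.mem_insert, Finset.mem_singleton] at hy
    simp only [Finset.mem_filter, Finset.mem_univ, true_and]
    rcases hy with rfl | rfl | rfl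
    · simp
    · exact ha'.1
    · exact hb'.1
  have hcard : ({1, a, b} : Finset P).card = 3 := by
    rw [Finset.card_insert_of_notMem, Finset.card_insert_of_notMem, Finset.card_singleton]
    · simpa using hab
    · simp only [Finset.mem_insert, Finset.mem_singleton, not_or]
      exact ⟨fun h => ha'.2 h.symm, fun h => hb'.2 h.symm⟩
  have := Finset.card_le_card hsub
  omega

/-- If the centralizer of an involution has a cyclic Sylow 2-subgroup then the group has a
subgroup of index 2 (auxiliary form with the centralizer abstracted). -/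
theorem exists_index_two_of_cyclic_sylow_centralizer_aux {G : Type*} [Group G] [Finite G] (x : G)
    (hx : orderOf x = 2) (C : Subgroup G) (hC : C = Subgroup.centralizer ({x} : Set G))
    (S : Sylow 2 ↥C) (hS : IsCyclic (S : Subgroup ↥C)) :
    ∃ H : Subgroup G, H.index = 2 := by
  have hp2 : Fact (Nat.Prime 2) := ⟨Nat.prime_two⟩
  have heven : Even (Nat.card G) := by
    rw [even_iff_two_dvd, ← hx]; exact orderOf_dvd_natCard x
  -- the image of S in G
  set S' : Subgroup G := (S : Subgroup C).map C.subtype with hS'
  have hS'p : IsPGroup 2 S' := S.2.map _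
  obtain ⟨T, hT⟩ := hS'p.exists_le_sylow
  -- x lies in S
  have hmemC : ∀ g : G, g ∈ C ↔ x * g = g * x := fun g => by rw [hC]; exact mem_cent_single
  have hxC : x ∈ C := (hmemC x).mpr rfl
  have hxS : (⟨x, hxC⟩ : C) ∈ (S : Subgroup C) := by
    have hZp : IsPGroup 2 (Subgroup.zpowers (⟨x, hxC⟩ : C)) := by
      apply IsPGroup.of_card (n := 1)
      rw [Nat.card_zpowers, Subgroup.orderOf_mk, hx, pow_one]
    have hZn : Subgroup.zpowers (⟨x, hxC⟩ : C) ≤ Subgroup.normalizer ((S : Subgroup C) : Set C) := by
      rw [Subgroup.zpowers_le]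
      rw [Subgroup.mem_normalizer_iff]
      intro h
      have hcomm : (⟨x, hxC⟩ : C) * h * (⟨x, hxC⟩ : C)⁻¹ = h := by
        apply Subtype.ext
        have := (hmemC _).mp h.2
        simp only [Subgroup.coe_mul, Subgroup.coe_inv]
        rw [this, mul_inv_cancel_right]
      rw [hcomm]
    have hsup := hZp.to_sup_of_normal_right' S.2 hZn
    have := S.is_maximal' hsup le_sup_right
    rw [← this]
    exact Subgroup.mem_sup_left (Subgroup.mem_zpowers _)
  have hxS' : x ∈ S' := ⟨⟨x, hxC⟩, hxS, rfl⟩
  -- T ∩ C ≤ S'
  have hTC : ∀ g : G, g ∈ T → g ∈ C → g ∈ S' := by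
    intro g hgT hgC
    have hQ : IsPGroup 2 ((T : Subgroup G).subgroupOf C) := T.2.comap_subtype
    have hle : (S : Subgroup C) ≤ (T : Subgroup G).subgroupOf C := by
      intro s hs
      rw [Subgroup.mem_subgroupOf]
      exact hT ⟨s, hs, rfl⟩
    have := S.is_maximal' hQ hle
    have hg : (⟨g, hgC⟩ : C) ∈ (T : Subgroup G).subgroupOf C := by
      rw [Subgroup.mem_subgroupOf]; exact hgT
    rw [this] at hg
    exact ⟨⟨g, hgC⟩, hg, rfl⟩
  -- S' is cyclic
  have hS'cyc : IsCyclic S' := by
    have e : (S : Subgroup C) ≃* S' := (S : Subgroup C).equivMapOfInjective C.subtype C.subtype_injective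
    have : IsCyclic (S : Subgroup C) := hS
    exact isCyclic_of_surjective e e.surjective
  -- S' = T by the normalizer condition
  have hST : S' = (T : Subgroup G) := by
    have hnil : Group.IsNilpotent T := T.2.isNilpotent
    have hNC := (normalizerCondition_iff_only_full_group_self_normalizing (G := T)).mp
      Group.normalizerCondition_of_isNilpotent (S'.subgroupOf T)
    have htop : S'.subgroupOf T = ⊤ := by
      apply hNC
      apply le_antisymm _ Subgroup.le_normalizer
      intro n hn
      rw [Subgroup.mem_normalizer_iff] at hn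
      rw [Subgroup.mem_subgroupOf]
      have hxT : x ∈ T := hT hxS'
      have h1 := (hn ⟨x, hxT⟩).mp (by rw [Subgroup.mem_subgroupOf]; exact hxS')
      rw [Subgroup.mem_subgroupOf] at h1
      have h1' : (n : G) * x * (n : G)⁻¹ ∈ S' := by simpa using h1
      -- unique involution in S'
      have ho : orderOf (⟨(n : G) * x * (n : G)⁻¹, h1'⟩ : S') = 2 := by
        rw [Subgroup.orderOf_mk, orderOf_conj_eq]; exact hx
      have ho' : orderOf (⟨x, hxS'⟩ : S') = 2 := by
        rw [Subgroup.orderOf_mk]; exact hx
      have heq := eq_of_orderOf_two_of_isCyclic ho ho'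
      have heq' : (n : G) * x * (n : G)⁻¹ = x := congrArg Subtype.val heq
      apply hTC _ n.2
      rw [hmemC]
      calc x * (n : G) = (n : G) * x * (n : G)⁻¹ * (n : G) := by rw [heq']
        _ = (n : G) * x := by group
    apply le_antisymm hT
    intro g hg
    have : (⟨g, hg⟩ : T) ∈ S'.subgroupOf T := by rw [htop]; trivial
    rwa [Subgroup.mem_subgroupOf] at this
  have hTcyc : IsCyclic (T : Subgroup G) := by rw [← hST]; exact hS'cyc
  exact exists_index_two_of_cyclic_sylow heven T hTcyc

/-- If the centralizer of an involution has a cyclic Sylow 2-subgroup then the group has a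
subgroup of index 2. -/
theorem exists_index_two_of_cyclic_sylow_centralizer {G : Type*} [Group G] [Finite G] (x : G)
    (hx : orderOf x = 2) (S : Sylow 2 ↥(Subgroup.centralizer ({x} : Set G)))
    (hS : IsCyclic (S : Subgroup ↥(Subgroup.centralizer ({x} : Set G)))) :
    ∃ H : Subgroup G, H.index = 2 :=
  exists_index_two_of_cyclic_sylow_centralizer_aux x hx _ rfl S hS

end Cfsg.Agent.H6
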