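import Mathlib
import Cfsg.Prelude.Def_SporadicB

/-!
# Team project S2132 (helper6): the centraliser of an involution of the McLaughlin group is a
non-split double cover of the alternating group of degree 8

Definitions and the statements of the abstract pieces. The alternating group of degree 8 acts on
the 35 bisections of 8 points, written as the four-subsets of `Fin 8` containing `0`.
-/

set_option autoImplicit false

namespace Cfsg.Agent.H6.Dc

open Equiv

/-- the 35 bisections of 8 points: the four-subsets of `Fin 8` containing `0` -/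
abbrev Bis : Type := {S : Finset (Fin 8) // S.card = 4 ∧ (0 : Fin 8) ∈ S}

/-- the image of a bisection under a permutation: the image of the four-set or the complement of
the image, whichever contains `0` -/
def bimg (σ : Perm (Fin 8)) (S : Finset (Fin 8)) : Finset (Fin 8) :=
  if (0 : Fin 8) ∈ S.map σ.toEmbedding then S.map σ.toEmbedding else (S.map σ.toEmbedding)ᶜ

/-- the 3-cycle `(0 1 2)` -/
def a1 : Perm (Fin 8) :=
  ⟨![1, 2, 0, 3, 4, 5, 6, 7], ![2, 0, 1, 3, 4, 5, 6, 7], by decide, by decide⟩

/-- the 7-cycle `(1 2 3 4 5 6 7)` -/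
def a2 : Perm (Fin 8) :=
  ⟨![0, 2, 3, 4, 5, 6, 7, 1], ![0, 7, 1, 2, 3, 4, 5, 6], by decide, by decide⟩

/-- piece DC-ACT: `bimg` is an action of the symmetric group on the bisections -/
def StAct : Prop :=
  (∀ (σ : Perm (Fin 8)) (S : Bis), (bimg σ S.1).card = 4 ∧ (0 : Fin 8) ∈ bimg σ S.1) ∧
  (∀ S : Bis, bimg 1 S.1 = S.1) ∧
  (∀ (σ τ : Perm (Fin 8)) (S : Bis), bimg (σ * τ) S.1 = bimg σ (bimg τ S.1))

/-- piece DC-FAITH: the alternating group acts faithfully on the bisections -/
def StFaith : Prop :=
  ∀ σ : Perm (Fin 8), σ ∈ alternatingGroup (Fin 8) → (∀ S : Bis, bimg σ S.1 = S.1) → σ = 1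

/-- piece DC-BCARD: there are 35 bisections -/
def StBCard : Prop := Fintype.card Bis = 35

/-- piece DC-GEN: the 3-cycle and the 7-cycle generate the alternating group -/
def StGen : Prop :=
  ∀ H : Subgroup (Perm (Fin 8)), a1 ∈ H → a2 ∈ H → alternatingGroup (Fin 8) ≤ H

/-- piece DC-CENTER: the alternating group of degree 8 has trivial centre -/
def StCenter : Prop :=
  ∀ z : alternatingGroup (Fin 8), (∀ a : alternatingGroup (Fin 8), a * z = z * a) → z = 1

/-- piece DC-ABS: the abstract recognition of a non-split double cover of the alternating group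
of degree 8 -/
def StAbs : Prop :=
  ∀ (C : Type) [Group C] [Finite C] (X : Type) (ρ : C →* Perm X)
    (β : alternatingGroup (Fin 8) →* Perm X) (t g : C),
    Function.Injective β → (∀ a, β a ∈ ρ.range) → t ≠ 1 → (∀ c : C, c * t = t * c) → ρ t = 1 →
    g * g = t → Nat.card C ≤ 40320 →
    Cfsg.IsNonsplitDoubleCover C (alternatingGroup (Fin 8))

/-- piece DC-MAIN: the recognition from an action on 35 points labelled by the bisections -/
def StMain : Prop :=
  ∀ (C : Type) [Group C] [Finite C] (Y : Type) [Fintype Y] [MulAction C Y]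
    (lam : Y → Finset (Fin 8)) (t g c1 c2 : C),
    Fintype.card Y = 35 → (∀ y, (lam y).card = 4 ∧ (0 : Fin 8) ∈ lam y) →
    Function.Injective lam →
    t ≠ 1 → (∀ c : C, c * t = t * c) → (∀ y : Y, t • y = y) → g * g = t →
    (∀ y : Y, lam (c1 • y) = bimg a1 (lam y)) → (∀ y : Y, lam (c2 • y) = bimg a2 (lam y)) →
    Nat.card C ≤ 40320 →
    Cfsg.IsNonsplitDoubleCover C (alternatingGroup (Fin 8))

/-- piece DC-CLASS: a lower bound for a conjugacy class bounds the centraliser -/
def StClass : Prop :=
  ∀ (G : Type) [Group G] [Finite G] (t : G) (n : ℕ) (f : Fin n → G),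
    Function.Injective f → (∀ i, IsConj t (f i)) →
    n * Nat.card ↥(Subgroup.centralizer ({t} : Set G)) ≤ Nat.card G

/-- piece DC-TRANSFER: the property passes to an isomorphic group -/
def StTransfer : Prop :=
  ∀ (G G' : Type) [Group G] [Group G'] (e : G ≃* G') (t : G),
    Cfsg.IsNonsplitDoubleCover ↥(Subgroup.centralizer ({t} : Set G)) (alternatingGroup (Fin 8)) →
    Cfsg.IsNonsplitDoubleCover ↥(Subgroup.centralizer ({e t} : Set G'))
      (alternatingGroup (Fin 8))

end Cfsg.Agent.H6.Dc
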