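import Mathlib
import Cfsg.Agent.H6.L42Table

/-! Kernel-checked table facts for `PSL₄(2) ≅ A₈` (helper6); everything here is on row codes. -/

set_option autoImplicit false

namespace Cfsg.Agent.H6.L42

/-- table lookup by four row codes -/
def look (a b c d : ℕ) : ℕ :=
  Nat.land (Nat.shiftRight tblT (Nat.mul 32
    (Nat.add (Nat.mul (Nat.add (Nat.mul (Nat.add (Nat.mul a 16) b) 16) c) 16) d))) 4294967295

/-- table value of `S₀ * X` etc. (rows of `S_t * X` are xor-combinations of the rows of `X`) -/
def act0 (a b c d : ℕ) : ℕ := look b (Nat.xor a b) d (Nat.xor c d)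
def act1 (a b c d : ℕ) : ℕ := look (Nat.xor a b) a (Nat.xor c d) c
def act2 (a b c d : ℕ) : ℕ :=
  look a (Nat.xor (Nat.xor a b) c) (Nat.xor c d) (Nat.xor (Nat.xor b c) d)
def act3 (a b c d : ℕ) : ℕ :=
  look a (Nat.xor c d) (Nat.xor (Nat.xor (Nat.xor a b) c) d) (Nat.xor (Nat.xor a b) d)

/-- compare a base-8 digit of `w / 32` with a base-8 digit of `v / 32` -/
def eqd (w v c1 c2 : ℕ) : Bool := Nat.beq (Nat.mod (Nat.div w c1) 8) (Nat.mod (Nat.div v c2) 8)

/-- the permutation code `w / 32` is the code `v / 32` with digits permuted by generator 0 -/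
def cmp0 (w v : ℕ) : Bool :=
  eqd w v 32 2048 && (eqd w v 256 32 && (eqd w v 2048 256 && (eqd w v 16384 16384 && (eqd w v 131072 131072 && (eqd w v 1048576 1048576 && (eqd w v 8388608 8388608 && (eqd w v 67108864 67108864)))))))

/-- the permutation code `w / 32` is the code `v / 32` with digits permuted by generator 1 -/
def cmp1 (w v : ℕ) : Bool :=
  eqd w v 32 256 && (eqd w v 256 2048 && (eqd w v 2048 32 && (eqd w v 16384 16384 && (eqd w v 131072 131072 && (eqd w v 1048576 1048576 && (eqd w v 8388608 8388608 && (eqd w v 67108864 67108864)))))))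

/-- the permutation code `w / 32` is the code `v / 32` with digits permuted by generator 2 -/
def cmp2 (w v : ℕ) : Bool :=
  eqd w v 32 32 && (eqd w v 256 67108864 && (eqd w v 2048 256 && (eqd w v 16384 2048 && (eqd w v 131072 16384 && (eqd w v 1048576 131072 && (eqd w v 8388608 1048576 && (eqd w v 67108864 8388608)))))))

/-- the permutation code `w / 32` is the code `v / 32` with digits permuted by generator 3 -/
def cmp3 (w v : ℕ) : Bool :=
  eqd w v 32 32 && (eqd w v 256 2048 && (eqd w v 2048 16384 && (eqd w v 16384 131072 && (eqd w v 131072 1048576 && (eqd w v 1048576 8388608 && (eqd w v 8388608 67108864 && (eqd w v 67108864 256)))))))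

def chkT0 (a b c d : ℕ) : Bool := cmp0 (act0 a b c d) (look a b c d)
def chkT1 (a b c d : ℕ) : Bool := cmp1 (act1 a b c d) (look a b c d)
def chkT2 (a b c d : ℕ) : Bool := cmp2 (act2 a b c d) (look a b c d)
def chkT3 (a b c d : ℕ) : Bool := cmp3 (act3 a b c d) (look a b c d)

/-- descent: the depth is `0` or some generator decreases it -/
def chkD (a b c d : ℕ) : Bool :=
  Nat.beq (Nat.mod (look a b c d) 32) 0 ||
    (Nat.blt (Nat.mod (act0 a b c d) 32) (Nat.mod (look a b c d) 32) ||
    (Nat.blt (Nat.mod (act1 a b c d) 32) (Nat.mod (look a b c d) 32) ||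
    (Nat.blt (Nat.mod (act2 a b c d) 32) (Nat.mod (look a b c d) 32) ||
    Nat.blt (Nat.mod (act3 a b c d) 32) (Nat.mod (look a b c d) 32))))

/-- only the identity has depth `0` -/
def chkZ (a b c d : ℕ) : Bool :=
  !(Nat.beq (Nat.mod (look a b c d) 32) 0) ||
    (Nat.beq a 8 && (Nat.beq b 4 && (Nat.beq c 2 && Nat.beq d 1)))

def nz (x : ℕ) : Bool := !(Nat.beq x 0)

/-- staged linear independence of the rows -/
def v1 (a : ℕ) : Bool := nz a
def v2 (a b : ℕ) : Bool := nz b && nz (Nat.xor a b)
def v3 (a b c : ℕ) : Bool :=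
  nz c && (nz (Nat.xor a c) && (nz (Nat.xor b c) && nz (Nat.xor (Nat.xor a b) c)))
def v4 (a b c d : ℕ) : Bool :=
  nz d && (nz (Nat.xor a d) && (nz (Nat.xor b d) && (nz (Nat.xor (Nat.xor a b) d) &&
    (nz (Nat.xor c d) && (nz (Nat.xor (Nat.xor a c) d) && (nz (Nat.xor (Nat.xor b c) d) &&
      nz (Nat.xor (Nat.xor (Nat.xor a b) c) d)))))))

def all16 (p : ℕ → Bool) : Bool :=
  p 0 && (p 1 && (p 2 && (p 3 && (p 4 && (p 5 && (p 6 && (p 7 && (p 8 && (p 9 && (p 10 &&
    (p 11 && (p 12 && (p 13 && (p 14 && p 15))))))))))))))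

lemma all16_spec {p : ℕ → Bool} (h : all16 p = true) (n : ℕ) (hn : n < 16) : p n = true := by
  simp only [all16, Bool.and_eq_true] at h
  obtain ⟨h0, h1, h2, h3, h4, h5, h6, h7, h8, h9, h10, h11, h12, h13, h14, h15⟩ := h
  interval_cases n <;> assumption

def imp (x y : Bool) : Bool := !x || y

/-- check a Boolean predicate on all invertible matrices (by row codes) -/
def allV (P : ℕ → ℕ → ℕ → ℕ → Bool) : Bool :=
  all16 fun a => imp (v1 a) (all16 fun b => imp (v2 a b) (all16 fun c => imp (v3 a b c)
    (all16 fun d => imp (v4 a b c d) (P a b c d))))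

lemma allV_spec {P : ℕ → ℕ → ℕ → ℕ → Bool} (h : allV P = true) (a b c d : ℕ)
    (ha : a < 16) (hb : b < 16) (hc : c < 16) (hd : d < 16) (h1 : v1 a = true)
    (h2 : v2 a b = true) (h3 : v3 a b c = true) (h4 : v4 a b c d = true) :
    P a b c d = true := by
  have e1 := all16_spec h a ha
  simp only [imp, h1, Bool.not_true, Bool.false_or] at e1
  have e2 := all16_spec e1 b hb
  simp only [imp, h2, Bool.not_true, Bool.false_or] at e2
  have e3 := all16_spec e2 c hc
  simp only [imp, h3, Bool.not_true, Bool.false_or] at e3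
  have e4 := all16_spec e3 d hd
  simpa only [imp, h4, Bool.not_true, Bool.false_or] using e4

set_option maxRecDepth 100000 in
lemma hT0 : allV chkT0 = true := by decide +kernel

set_option maxRecDepth 100000 in
lemma hT1 : allV chkT1 = true := by decide +kernel

set_option maxRecDepth 100000 in
lemma hT2 : allV chkT2 = true := by decide +kernel

set_option maxRecDepth 100000 in
lemma hT3 : allV chkT3 = true := by decide +kernel

set_option maxRecDepth 100000 in
lemma hdesc : allV chkD = true := by decide +kernel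

set_option maxRecDepth 100000 in
lemma hzero : allV chkZ = true := by decide +kernel

lemma look_one : look 8 4 2 1 = 16434824 * 32 := by decide +kernel

end Cfsg.Agent.H6.L42
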