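import Mathlib

/-! Groups of order 12 with no central involution are `A₄` (helper6). -/

set_option autoImplicit false

namespace Cfsg.Agent.H6

/-- order of a Sylow subgroup from a factorisation of the group order -/
lemma sylow_card_of_card_eq {G : Type*} [Group G] [Finite G] {p : ℕ} [Fact p.Prime]
    (P : Sylow p G) (k m : ℕ) (h : Nat.card G = p ^ k * m) (hm : ¬ p ∣ m) :
    Nat.card P = p ^ k := by
  have hp : p.Prime := Fact.out
  rw [Sylow.card_eq_multiplicity, h]
  have hm0 : m ≠ 0 := by
    rintro rfl
    exact hm (dvd_zero p)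
  rw [Nat.factorization_mul (pow_ne_zero k hp.ne_zero) hm0, Nat.Prime.factorization_pow hp]
  simp [Nat.factorization_eq_zero_of_not_dvd hm]

/-- a group of order `n!/2` acting faithfully on `n` points is the alternating group -/
theorem equiv_alternating_of_injective {G X : Type*} [Group G] (n : ℕ) (hX : Nat.card X = n)
    (hn : n ≠ 0) (φ : G →* Equiv.Perm X) (hφ : Function.Injective φ)
    (hcard : Nat.card G * 2 = n.factorial) :
    Nonempty (G ≃* alternatingGroup (Fin n)) := by
  classical
  have hfin : Finite X := Nat.finite_of_card_ne_zero (by rw [hX]; exact hn)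
  let e : X ≃ Fin n := Finite.equivFinOfCardEq hX
  let ψ : G →* Equiv.Perm (Fin n) :=
    (e.permCongrHom : Equiv.Perm X ≃* Equiv.Perm (Fin n)).toMonoidHom.comp φ
  have hψ : Function.Injective ψ := by
    intro a b h
    apply hφ
    exact (e.permCongrHom : Equiv.Perm X ≃* Equiv.Perm (Fin n)).injective h
  have hrange : ψ.range = alternatingGroup (Fin n) := by
    apply Equiv.Perm.eq_alternatingGroup_of_index_eq_two
    have h1 : Nat.card ψ.range = Nat.card G :=
      (Nat.card_congr (MonoidHom.ofInjective hψ).toEquiv).symm
    have h2 : Nat.card ψ.range * ψ.range.index = Nat.card (Equiv.Perm (Fin n)) :=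
      Subgroup.card_mul_index _
    have h3 : Nat.card (Equiv.Perm (Fin n)) = n.factorial := by
      rw [Nat.card_eq_fintype_card, Fintype.card_perm, Fintype.card_fin]
    rw [h1, h3, ← hcard] at h2
    have hpos : 0 < Nat.card G := by
      rcases Nat.eq_zero_or_pos (Nat.card G) with h | h
      · rw [h] at hcard
        have := Nat.factorial_pos n
        omega
      · exact h
    exact Nat.eq_of_mul_eq_mul_left hpos h2
  exact ⟨(MonoidHom.ofInjective hψ).trans (MulEquiv.subgroupCongr hrange)⟩

/-- two distinct subgroups of the same prime order meet trivially -/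
lemma inf_eq_bot_of_prime_card {G : Type*} [Group G] [Finite G] {p : ℕ} (hp : p.Prime)
    (H K : Subgroup G) (hH : Nat.card H = p) (hK : Nat.card K = p) (hne : H ≠ K) :
    H ⊓ K = ⊥ := by
  have h1 : Nat.card (H ⊓ K : Subgroup G) ∣ p := hH ▸ Subgroup.card_dvd_of_le inf_le_left
  rcases (Nat.dvd_prime hp).mp h1 with h | h
  · exact Subgroup.card_eq_one.mp h
  · exfalso
    have e1 : H ⊓ K = H := Subgroup.eq_of_le_of_card_ge inf_le_left (by rw [h, hH])
    have e2 : H ⊓ K = K := Subgroup.eq_of_le_of_card_ge inf_le_right (by rw [h, hK])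
    exact hne (e1.symm.trans e2)

/-- A group of order 12 with no central involution is `A₄`. -/
theorem order_twelve_alt {G : Type*} [Group G] [Finite G] (hG : Nat.card G = 12)
    (hz : ∀ z : G, orderOf z = 2 → z ∉ Subgroup.center G) :
    Nonempty (G ≃* alternatingGroup (Fin 4)) := by
  classical
  have : Fact (Nat.Prime 3) := ⟨by norm_num⟩
  have : Fact (Nat.Prime 2) := ⟨by norm_num⟩
  obtain ⟨P⟩ : Nonempty (Sylow 3 G) := inferInstance
  obtain ⟨Q⟩ : Nonempty (Sylow 2 G) := inferInstance
  have hP : Nat.card P = 3 := by
    have := sylow_card_of_card_eq P 1 4 (by rw [hG]; norm_num) (by norm_num)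
    simpa using this
  have hQ : Nat.card Q = 4 := by
    have := sylow_card_of_card_eq Q 2 3 (by rw [hG]; norm_num) (by norm_num)
    simpa using this
  have hPidx : (P : Subgroup G).index = 4 := by
    have := Subgroup.card_mul_index (P : Subgroup G)
    rw [hG] at this
    have hP' : Nat.card (P : Subgroup G) = 3 := hP
    rw [hP'] at this
    omega
  have hn3 : Nat.card (Sylow 3 G) ∣ 4 := hPidx ▸ Sylow.card_dvd_index P
  have hn3' : Nat.card (Sylow 3 G) ≡ 1 [MOD 3] := card_sylow_modEq_one 3 G
  have hcases : Nat.card (Sylow 3 G) = 1 ∨ Nat.card (Sylow 3 G) = 4 := by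
    have hle : Nat.card (Sylow 3 G) ≤ 4 := Nat.le_of_dvd (by norm_num) hn3
    have hpos : 0 < Nat.card (Sylow 3 G) := Nat.pos_of_dvd_of_pos hn3 (by norm_num)
    unfold Nat.ModEq at hn3'
    interval_cases h : Nat.card (Sylow 3 G) <;> simp_all
  rcases hcases with h1 | h4
  · -- normal Sylow 3-subgroup: central involution
    exfalso
    have hsub : Subsingleton (Sylow 3 G) := (Nat.card_eq_one_iff_unique.mp h1).1
    have hPn : (P : Subgroup G).Normal := Sylow.normal_of_subsingleton P
    have hcyc : IsCyclic (P : Subgroup G) := isCyclic_of_prime_card (p := 3) hP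
    have hAut : Nat.card (MulAut (P : Subgroup G)) = 2 := by
      rw [IsCyclic.card_mulAut]
      have hP' : Nat.card (P : Subgroup G) = 3 := hP
      rw [hP']
      rfl
    let f : (Q : Subgroup G) →* MulAut (P : Subgroup G) :=
      (MulAut.conjNormal (H := (P : Subgroup G))).comp (Q : Subgroup G).subtype
    have hker : 2 ∣ Nat.card f.ker := by
      have e1 : Nat.card f.ker * Nat.card f.range = 4 := by
        have := Subgroup.card_mul_index f.ker
        rw [Subgroup.index_ker] at this
        rw [this]
        exact hQ
      have e2 : Nat.card f.range ∣ 2 := by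
        have := Subgroup.card_subgroup_dvd_card f.range
        rwa [hAut] at this
      have e3 : Nat.card f.range ≤ 2 := Nat.le_of_dvd (by norm_num) e2
      have e4 : 0 < Nat.card f.range := Nat.pos_of_dvd_of_pos e2 (by norm_num)
      interval_cases hr : Nat.card f.range
      · exact ⟨2, by omega⟩
      · exact ⟨1, by omega⟩
    obtain ⟨z', hz'⟩ := exists_prime_orderOf_dvd_card' 2 hker
    let z : G := ((z' : (Q : Subgroup G)) : G)
    have hzord : orderOf z = 2 := by
      change orderOf (((z' : (Q : Subgroup G)) : G)) = 2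
      rw [Subgroup.orderOf_coe, Subgroup.orderOf_coe]
      exact hz'
    have hzP : ∀ x ∈ (P : Subgroup G), z * x = x * z := by
      intro x hx
      have h2 : f (z' : (Q : Subgroup G)) = 1 := z'.2
      have h3 := congrArg (fun σ : MulAut (P : Subgroup G) => ((σ ⟨x, hx⟩ : (P : Subgroup G)) : G)) h2
      simp only [f, MonoidHom.comp_apply, Subgroup.coe_subtype, MulAut.conjNormal_apply,
        MulAut.one_apply] at h3
      change z * x * z⁻¹ = x at h3
      rw [mul_inv_eq_iff_eq_mul] at h3
      exact h3
    have hzQ : ∀ x ∈ (Q : Subgroup G), z * x = x * z := by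
      intro x hx
      have hcomm := IsPGroup.commutative_of_card_eq_prime_sq (p := 2) (G := (Q : Subgroup G))
        (by rw [show Nat.card (Q : Subgroup G) = 4 from hQ]; norm_num)
      have := hcomm (z' : (Q : Subgroup G)) ⟨x, hx⟩
      exact congrArg Subtype.val this
    have htop : (P : Subgroup G) ⊔ (Q : Subgroup G) = ⊤ := by
      apply Subgroup.eq_top_of_card_eq
      have d1 : 3 ∣ Nat.card ((P : Subgroup G) ⊔ (Q : Subgroup G) : Subgroup G) := by
        have := Subgroup.card_dvd_of_le (le_sup_left : (P : Subgroup G) ≤ (P : Subgroup G) ⊔ (Q : Subgroup G))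
        rwa [show Nat.card (P : Subgroup G) = 3 from hP] at this
      have d2 : 4 ∣ Nat.card ((P : Subgroup G) ⊔ (Q : Subgroup G) : Subgroup G) := by
        have := Subgroup.card_dvd_of_le (le_sup_right : (Q : Subgroup G) ≤ (P : Subgroup G) ⊔ (Q : Subgroup G))
        rwa [show Nat.card (Q : Subgroup G) = 4 from hQ] at this
      have d3 : Nat.card ((P : Subgroup G) ⊔ (Q : Subgroup G) : Subgroup G) ∣ 12 :=
        hG ▸ Subgroup.card_subgroup_dvd_card _
      have d4 := Nat.le_of_dvd (by norm_num) d3
      have d5 : 0 < Nat.card ((P : Subgroup G) ⊔ (Q : Subgroup G) : Subgroup G) := Nat.card_pos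
      rw [hG]
      omega
    have hcent : (P : Subgroup G) ⊔ (Q : Subgroup G) ≤ Subgroup.centralizer {z} := by
      apply sup_le
      · intro x hx
        rw [Subgroup.mem_centralizer_iff]
        intro y hy
        rw [Set.mem_singleton_iff] at hy
        rw [hy]
        exact hzP x hx
      · intro x hx
        rw [Subgroup.mem_centralizer_iff]
        intro y hy
        rw [Set.mem_singleton_iff] at hy
        rw [hy]
        exact hzQ x hx
    apply hz z hzord
    rw [Subgroup.mem_center_iff]
    intro g
    have hg : g ∈ Subgroup.centralizer {z} := hcent (htop ▸ Subgroup.mem_top g)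
    rw [Subgroup.mem_centralizer_iff] at hg
    exact (hg z rfl).symm
  · -- four Sylow 3-subgroups: faithful action
    let φ : G →* Equiv.Perm (Sylow 3 G) := MulAction.toPermHom G (Sylow 3 G)
    have hN : ∀ R : Sylow 3 G, Subgroup.normalizer ((R : Subgroup G) : Set G) = (R : Subgroup G) := by
      intro R
      have hR : Nat.card (R : Subgroup G) = 3 := by
        have := sylow_card_of_card_eq R 1 4 (by rw [hG]; norm_num) (by norm_num)
        simpa using this
      have i1 : (Subgroup.normalizer ((R : Subgroup G) : Set G)).index = 4 := by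
        rw [← h4]
        exact (Sylow.card_eq_index_normalizer R).symm
      have i2 := Subgroup.card_mul_index (Subgroup.normalizer ((R : Subgroup G) : Set G))
      rw [i1, hG] at i2
      symm
      apply Subgroup.eq_of_le_of_card_ge Subgroup.le_normalizer
      rw [hR]
      omega
    have hφ : Function.Injective φ := by
      rw [← MonoidHom.ker_eq_bot_iff, eq_bot_iff]
      intro g hg
      rw [MonoidHom.mem_ker] at hg
      have hfix : ∀ R : Sylow 3 G, g ∈ (R : Subgroup G) := by
        intro R
        have h1 : g • R = R := by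
          have := congrArg (fun σ : Equiv.Perm (Sylow 3 G) => σ R) hg
          simpa [φ] using this
        rw [Sylow.smul_eq_iff_mem_normalizer] at h1
        have h2 : g ∈ Subgroup.normalizer ((R : Subgroup G) : Set G) := h1
        rw [hN R] at h2
        exact h2
      have hnt : Nontrivial (Sylow 3 G) := by
        rw [← Finite.one_lt_card_iff_nontrivial, h4]
        norm_num
      obtain ⟨R₁, R₂, hne⟩ := exists_pair_ne (Sylow 3 G)
      have hR₁ : Nat.card (R₁ : Subgroup G) = 3 := by
        have := sylow_card_of_card_eq R₁ 1 4 (by rw [hG]; norm_num) (by norm_num)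
        simpa using this
      have hR₂ : Nat.card (R₂ : Subgroup G) = 3 := by
        have := sylow_card_of_card_eq R₂ 1 4 (by rw [hG]; norm_num) (by norm_num)
        simpa using this
      have hinf := inf_eq_bot_of_prime_card (by norm_num : Nat.Prime 3) (R₁ : Subgroup G)
        (R₂ : Subgroup G) hR₁ hR₂ (fun h => hne (Sylow.ext h))
      rw [← hinf]
      exact ⟨hfix R₁, hfix R₂⟩
    exact equiv_alternating_of_injective 4 h4 (by norm_num) φ hφ (by rw [hG]; rfl)

end Cfsg.Agent.H6
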