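import Mathlib
import Cfsg.Agent.H6.L42Check
import Cfsg.Agent.H6.SLTransfer
import Cfsg.Agent.H6.SL2Small
import Cfsg.Agent.H6.PSLSimple
import Cfsg.Agent.H6.Order12
import Cfsg.Agent.S0243

/-! `PSL₄(2) ≅ A₈` via an explicit table-checked homomorphism (helper6). -/

set_option autoImplicit false

namespace Cfsg.Agent.H6.L42

open Matrix

/-- 4×4 matrices over `ZMod 2` -/
abbrev M4 : Type := Matrix (Fin 4) (Fin 4) (ZMod 2)

def code4 (x0 x1 x2 x3 : ZMod 2) : ℕ := x0.val * 8 + x1.val * 4 + x2.val * 2 + x3.val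

/-- code of a row -/
def code (v : Fin 4 → ZMod 2) : ℕ := code4 (v 0) (v 1) (v 2) (v 3)

lemma code4_lt : ∀ a b c d : ZMod 2, code4 a b c d < 16 := by decide

lemma code4_add : ∀ a b c d e f g h : ZMod 2,
    code4 (a + e) (b + f) (c + g) (d + h) = code4 a b c d ^^^ code4 e f g h := by decide

lemma code4_inj : ∀ a b c d e f g h : ZMod 2,
    code4 a b c d = code4 e f g h → a = e ∧ b = f ∧ c = g ∧ d = h := by decide

lemma code_lt (v : Fin 4 → ZMod 2) : code v < 16 := code4_lt _ _ _ _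

lemma code_add (u v : Fin 4 → ZMod 2) : code (u + v) = code u ^^^ code v :=
  code4_add _ _ _ _ _ _ _ _

lemma code_zero : code 0 = 0 := by decide

lemma code_inj {u v : Fin 4 → ZMod 2} (h : code u = code v) : u = v := by
  obtain ⟨h0, h1, h2, h3⟩ := code4_inj _ _ _ _ _ _ _ _ h
  funext i
  fin_cases i
  · exact h0
  · exact h1
  · exact h2
  · exact h3

lemma zmod2_cases : ∀ c : ZMod 2, c = 0 ∨ c = 1 := by decide

lemma code_smul (c : ZMod 2) (v : Fin 4 → ZMod 2) :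
    code (c • v) = if c = 1 then code v else 0 := by
  rcases zmod2_cases c with rfl | rfl
  · rw [zero_smul, code_zero, if_neg (by decide)]
  · rw [one_smul, if_pos rfl]

lemma code_vecMul (w : Fin 4 → ZMod 2) (X : M4) :
    code (w ᵥ* X) = (if w 0 = 1 then code (X 0) else 0) ^^^ (if w 1 = 1 then code (X 1) else 0)
      ^^^ (if w 2 = 1 then code (X 2) else 0) ^^^ (if w 3 = 1 then code (X 3) else 0) := by
  have h : w ᵥ* X = w 0 • X 0 + w 1 • X 1 + w 2 • X 2 + w 3 • X 3 := by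
    ext k
    simp [Matrix.vecMul, dotProduct, Fin.sum_univ_four]
  rw [h, code_add, code_add, code_add, code_smul, code_smul, code_smul, code_smul]

/-- row code -/
def rc (X : M4) (i : Fin 4) : ℕ := code (X i)

lemma rc_lt (X : M4) (i : Fin 4) : rc X i < 16 := code_lt _

lemma rc_mul (S X : M4) (i : Fin 4) :
    rc (S * X) i = (if S i 0 = 1 then rc X 0 else 0) ^^^ (if S i 1 = 1 then rc X 1 else 0)
      ^^^ (if S i 2 = 1 then rc X 2 else 0) ^^^ (if S i 3 = 1 then rc X 3 else 0) := by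
  unfold rc
  rw [Matrix.mul_apply_eq_vecMul, code_vecMul]

/-- table value of a matrix -/
def val (X : M4) : ℕ := look (rc X 0) (rc X 1) (rc X 2) (rc X 3)

/-- the constants `32 * 8 ^ j` -/
def dcon : Fin 8 → ℕ := ![32, 256, 2048, 16384, 131072, 1048576, 8388608, 67108864]

/-- `j`-th base-8 digit of the permutation code in a table value -/
def dg (v : ℕ) (j : Fin 8) : ℕ := Nat.mod (Nat.div v (dcon j)) 8

lemma dg_lt (v : ℕ) (j : Fin 8) : dg v j < 8 := Nat.mod_lt _ (by norm_num)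

/-- word length of a matrix -/
def idx (X : M4) : ℕ := val X % 32

/-- the (inverse of the) permutation attached to a matrix -/
def g₀ (X : M4) : Fin 8 → Fin 8 := fun j => ⟨dg (val X) j, dg_lt _ _⟩

def G0 : M4 := !![0, 1, 0, 0; 1, 1, 0, 0; 0, 0, 0, 1; 0, 0, 1, 1]
def G1 : M4 := !![1, 1, 0, 0; 1, 0, 0, 0; 0, 0, 1, 1; 0, 0, 1, 0]
def G2 : M4 := !![1, 0, 0, 0; 1, 1, 1, 0; 0, 0, 1, 1; 0, 1, 1, 1]
def G3 : M4 := !![1, 0, 0, 0; 0, 0, 1, 1; 1, 1, 1, 1; 1, 1, 0, 1]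

lemma G01 : G0 * G1 = 1 := by decide
lemma G10 : G1 * G0 = 1 := by decide
lemma G23 : G2 * G3 = 1 := by decide
lemma G32 : G3 * G2 = 1 := by decide

lemma val_G0 (X : M4) : val (G0 * X) = act0 (rc X 0) (rc X 1) (rc X 2) (rc X 3) := by
  have h0 : rc (G0 * X) 0 = rc X 1 := by rw [rc_mul]; simp [G0]
  have h1 : rc (G0 * X) 1 = rc X 0 ^^^ rc X 1 := by rw [rc_mul]; simp [G0]
  have h2 : rc (G0 * X) 2 = rc X 3 := by rw [rc_mul]; simp [G0]
  have h3 : rc (G0 * X) 3 = rc X 2 ^^^ rc X 3 := by rw [rc_mul]; simp [G0]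
  unfold val act0
  rw [h0, h1, h2, h3]
  rfl

lemma val_G1 (X : M4) : val (G1 * X) = act1 (rc X 0) (rc X 1) (rc X 2) (rc X 3) := by
  have h0 : rc (G1 * X) 0 = rc X 0 ^^^ rc X 1 := by rw [rc_mul]; simp [G1]
  have h1 : rc (G1 * X) 1 = rc X 0 := by rw [rc_mul]; simp [G1]
  have h2 : rc (G1 * X) 2 = rc X 2 ^^^ rc X 3 := by rw [rc_mul]; simp [G1]
  have h3 : rc (G1 * X) 3 = rc X 2 := by rw [rc_mul]; simp [G1]
  unfold val act1
  rw [h0, h1, h2, h3]
  rfl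

lemma val_G2 (X : M4) : val (G2 * X) = act2 (rc X 0) (rc X 1) (rc X 2) (rc X 3) := by
  have h0 : rc (G2 * X) 0 = rc X 0 := by rw [rc_mul]; simp [G2]
  have h1 : rc (G2 * X) 1 = rc X 0 ^^^ rc X 1 ^^^ rc X 2 := by rw [rc_mul]; simp [G2]
  have h2 : rc (G2 * X) 2 = rc X 2 ^^^ rc X 3 := by rw [rc_mul]; simp [G2]
  have h3 : rc (G2 * X) 3 = rc X 1 ^^^ rc X 2 ^^^ rc X 3 := by rw [rc_mul]; simp [G2]
  unfold val act2
  rw [h0, h1, h2, h3]
  rfl

lemma val_G3 (X : M4) : val (G3 * X) = act3 (rc X 0) (rc X 1) (rc X 2) (rc X 3) := by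
  have h0 : rc (G3 * X) 0 = rc X 0 := by rw [rc_mul]; simp [G3]
  have h1 : rc (G3 * X) 1 = rc X 2 ^^^ rc X 3 := by rw [rc_mul]; simp [G3]
  have h2 : rc (G3 * X) 2 = rc X 0 ^^^ rc X 1 ^^^ rc X 2 ^^^ rc X 3 := by rw [rc_mul]; simp [G3]
  have h3 : rc (G3 * X) 3 = rc X 0 ^^^ rc X 1 ^^^ rc X 3 := by rw [rc_mul]; simp [G3]
  unfold val act3
  rw [h0, h1, h2, h3]
  rfl

/-- invertibility (existence of a right inverse) -/
def RInv (X : M4) : Prop := ∃ X' : M4, X * X' = 1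

lemma RInv.mul {X Y : M4} (hX : RInv X) (hY : RInv Y) : RInv (X * Y) := by
  obtain ⟨X', hX'⟩ := hX
  obtain ⟨Y', hY'⟩ := hY
  refine ⟨Y' * X', ?_⟩
  rw [Matrix.mul_assoc, ← Matrix.mul_assoc Y, hY', Matrix.one_mul, hX']

lemma inv_G0 : RInv G0 := ⟨G1, G01⟩
lemma inv_G1 : RInv G1 := ⟨G0, G10⟩
lemma inv_G2 : RInv G2 := ⟨G3, G23⟩
lemma inv_G3 : RInv G3 := ⟨G2, G32⟩

lemma nz_iff (x : ℕ) : nz x = true ↔ x ≠ 0 := by
  unfold nz
  constructor
  · intro h h0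
    subst h0
    exact absurd h (by decide)
  · intro h
    cases hb : Nat.beq x 0
    · rfl
    · exact absurd (Nat.eq_of_beq_eq_true hb) h

/-- nonzero combinations of the rows of an invertible matrix are nonzero -/
lemma nzx {X : M4} (hX : RInv X) (w0 w1 w2 w3 : ZMod 2)
    (hw : ¬ (w0 = 0 ∧ w1 = 0 ∧ w2 = 0 ∧ w3 = 0)) :
    (if w0 = 1 then rc X 0 else 0) ^^^ (if w1 = 1 then rc X 1 else 0)
      ^^^ (if w2 = 1 then rc X 2 else 0) ^^^ (if w3 = 1 then rc X 3 else 0) ≠ 0 := by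
  obtain ⟨X', hX'⟩ := hX
  intro h0
  have h1 := code_vecMul ![w0, w1, w2, w3] X
  have h2 : code (![w0, w1, w2, w3] ᵥ* X) = 0 := by
    rw [h1]
    exact h0
  have h3 : ![w0, w1, w2, w3] ᵥ* X = 0 := code_inj (h2.trans code_zero.symm)
  have h4 : ![w0, w1, w2, w3] = 0 := by
    calc ![w0, w1, w2, w3] = ![w0, w1, w2, w3] ᵥ* (X * X') := by rw [hX', Matrix.vecMul_one]
      _ = (![w0, w1, w2, w3] ᵥ* X) ᵥ* X' := by rw [Matrix.vecMul_vecMul]
      _ = 0 := by rw [h3, Matrix.zero_vecMul]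
  apply hw
  refine ⟨?_, ?_, ?_, ?_⟩
  · simpa using congrFun h4 0
  · simpa using congrFun h4 1
  · simpa using congrFun h4 2
  · simpa using congrFun h4 3

lemma valid_of_inv {X : M4} (hX : RInv X) :
    v1 (rc X 0) = true ∧ v2 (rc X 0) (rc X 1) = true ∧ v3 (rc X 0) (rc X 1) (rc X 2) = true ∧
      v4 (rc X 0) (rc X 1) (rc X 2) (rc X 3) = true := by
  have e1 := nzx hX 1 0 0 0 (by decide)
  have e2 := nzx hX 0 1 0 0 (by decide)
  have e3 := nzx hX 1 1 0 0 (by decide)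
  have e4 := nzx hX 0 0 1 0 (by decide)
  have e5 := nzx hX 1 0 1 0 (by decide)
  have e6 := nzx hX 0 1 1 0 (by decide)
  have e7 := nzx hX 1 1 1 0 (by decide)
  have e8 := nzx hX 0 0 0 1 (by decide)
  have e9 := nzx hX 1 0 0 1 (by decide)
  have e10 := nzx hX 0 1 0 1 (by decide)
  have e11 := nzx hX 1 1 0 1 (by decide)
  have e12 := nzx hX 0 0 1 1 (by decide)
  have e13 := nzx hX 1 0 1 1 (by decide)
  have e14 := nzx hX 0 1 1 1 (by decide)
  have e15 := nzx hX 1 1 1 1 (by decide)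
  simp only [show ((0 : ZMod 2) = 1) = False from by decide, if_true, if_false,
    Nat.xor_zero, Nat.zero_xor] at e1 e2 e3 e4 e5 e6 e7 e8 e9 e10 e11 e12 e13 e14 e15
  simp only [v1, v2, v3, v4, Bool.and_eq_true, nz_iff]
  exact ⟨e1, ⟨e2, e3⟩, ⟨e4, e5, e6, e7⟩, ⟨e8, e9, e10, e11, e12, e13, e14, e15⟩⟩

lemma chk_of_inv {P : ℕ → ℕ → ℕ → ℕ → Bool} (h : allV P = true) {X : M4} (hX : RInv X) :
    P (rc X 0) (rc X 1) (rc X 2) (rc X 3) = true := by
  obtain ⟨h1, h2, h3, h4⟩ := valid_of_inv hX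
  exact allV_spec h _ _ _ _ (rc_lt X 0) (rc_lt X 1) (rc_lt X 2) (rc_lt X 3) h1 h2 h3 h4

def pi0 : Fin 8 → Fin 8 := ![2, 0, 1, 3, 4, 5, 6, 7]
def pi1 : Fin 8 → Fin 8 := ![1, 2, 0, 3, 4, 5, 6, 7]
def pi2 : Fin 8 → Fin 8 := ![0, 7, 1, 2, 3, 4, 5, 6]
def pi3 : Fin 8 → Fin 8 := ![0, 2, 3, 4, 5, 6, 7, 1]

lemma cmp0_spec {w v : ℕ} (h : cmp0 w v = true) (j : Fin 8) : dg w j = dg v (pi0 j) := by
  simp only [cmp0, eqd, Bool.and_eq_true] at h
  obtain ⟨h0, h1, h2, h3, h4, h5, h6, h7⟩ := h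
  fin_cases j
  · exact Nat.eq_of_beq_eq_true h0
  · exact Nat.eq_of_beq_eq_true h1
  · exact Nat.eq_of_beq_eq_true h2
  · exact Nat.eq_of_beq_eq_true h3
  · exact Nat.eq_of_beq_eq_true h4
  · exact Nat.eq_of_beq_eq_true h5
  · exact Nat.eq_of_beq_eq_true h6
  · exact Nat.eq_of_beq_eq_true h7

lemma g₀_G0 {X : M4} (hX : RInv X) : g₀ (G0 * X) = g₀ X ∘ pi0 := by
  have h := chk_of_inv hT0 hX
  funext j
  apply Fin.ext
  simp only [g₀, Function.comp_apply]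
  rw [val_G0]
  exact cmp0_spec h j

lemma cmp1_spec {w v : ℕ} (h : cmp1 w v = true) (j : Fin 8) : dg w j = dg v (pi1 j) := by
  simp only [cmp1, eqd, Bool.and_eq_true] at h
  obtain ⟨h0, h1, h2, h3, h4, h5, h6, h7⟩ := h
  fin_cases j
  · exact Nat.eq_of_beq_eq_true h0
  · exact Nat.eq_of_beq_eq_true h1
  · exact Nat.eq_of_beq_eq_true h2
  · exact Nat.eq_of_beq_eq_true h3
  · exact Nat.eq_of_beq_eq_true h4
  · exact Nat.eq_of_beq_eq_true h5
  · exact Nat.eq_of_beq_eq_true h6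
  · exact Nat.eq_of_beq_eq_true h7

lemma g₀_G1 {X : M4} (hX : RInv X) : g₀ (G1 * X) = g₀ X ∘ pi1 := by
  have h := chk_of_inv hT1 hX
  funext j
  apply Fin.ext
  simp only [g₀, Function.comp_apply]
  rw [val_G1]
  exact cmp1_spec h j

lemma cmp2_spec {w v : ℕ} (h : cmp2 w v = true) (j : Fin 8) : dg w j = dg v (pi2 j) := by
  simp only [cmp2, eqd, Bool.and_eq_true] at h
  obtain ⟨h0, h1, h2, h3, h4, h5, h6, h7⟩ := h
  fin_cases j
  · exact Nat.eq_of_beq_eq_true h0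
  · exact Nat.eq_of_beq_eq_true h1
  · exact Nat.eq_of_beq_eq_true h2
  · exact Nat.eq_of_beq_eq_true h3
  · exact Nat.eq_of_beq_eq_true h4
  · exact Nat.eq_of_beq_eq_true h5
  · exact Nat.eq_of_beq_eq_true h6
  · exact Nat.eq_of_beq_eq_true h7

lemma g₀_G2 {X : M4} (hX : RInv X) : g₀ (G2 * X) = g₀ X ∘ pi2 := by
  have h := chk_of_inv hT2 hX
  funext j
  apply Fin.ext
  simp only [g₀, Function.comp_apply]
  rw [val_G2]
  exact cmp2_spec h j

lemma cmp3_spec {w v : ℕ} (h : cmp3 w v = true) (j : Fin 8) : dg w j = dg v (pi3 j) := by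
  simp only [cmp3, eqd, Bool.and_eq_true] at h
  obtain ⟨h0, h1, h2, h3, h4, h5, h6, h7⟩ := h
  fin_cases j
  · exact Nat.eq_of_beq_eq_true h0
  · exact Nat.eq_of_beq_eq_true h1
  · exact Nat.eq_of_beq_eq_true h2
  · exact Nat.eq_of_beq_eq_true h3
  · exact Nat.eq_of_beq_eq_true h4
  · exact Nat.eq_of_beq_eq_true h5
  · exact Nat.eq_of_beq_eq_true h6
  · exact Nat.eq_of_beq_eq_true h7

lemma g₀_G3 {X : M4} (hX : RInv X) : g₀ (G3 * X) = g₀ X ∘ pi3 := by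
  have h := chk_of_inv hT3 hX
  funext j
  apply Fin.ext
  simp only [g₀, Function.comp_apply]
  rw [val_G3]
  exact cmp3_spec h j

lemma rc_one : rc 1 0 = 8 ∧ rc 1 1 = 4 ∧ rc 1 2 = 2 ∧ rc 1 3 = 1 := by decide

lemma val_one : val 1 = 16434824 * 32 := by
  obtain ⟨h0, h1, h2, h3⟩ := rc_one
  unfold val
  rw [h0, h1, h2, h3]
  exact look_one

lemma g₀_one : g₀ 1 = id := by
  funext j
  apply Fin.ext
  simp only [g₀, val_one, id]
  revert j
  decide

lemma hdesc' {X : M4} (hX : RInv X) :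
    idx X = 0 ∨ idx (G0 * X) < idx X ∨ idx (G1 * X) < idx X ∨ idx (G2 * X) < idx X ∨
      idx (G3 * X) < idx X := by
  have h := chk_of_inv hdesc hX
  simp only [chkD, Bool.or_eq_true, Nat.blt_eq] at h
  unfold idx
  rw [val_G0, val_G1, val_G2, val_G3]
  rcases h with h | h | h | h | h
  · exact Or.inl (Nat.eq_of_beq_eq_true h)
  · exact Or.inr (Or.inl h)
  · exact Or.inr (Or.inr (Or.inl h))
  · exact Or.inr (Or.inr (Or.inr (Or.inl h)))
  · exact Or.inr (Or.inr (Or.inr (Or.inr h)))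

lemma hzero' {X : M4} (hX : RInv X) (h0 : idx X = 0) : X = 1 := by
  have h := chk_of_inv hzero hX
  have hb : Nat.beq (Nat.mod (look (rc X 0) (rc X 1) (rc X 2) (rc X 3)) 32) 0 = true := by
    have : Nat.mod (look (rc X 0) (rc X 1) (rc X 2) (rc X 3)) 32 = 0 := h0
    rw [this]
    rfl
  simp only [chkZ, hb, Bool.not_true, Bool.false_or, Bool.and_eq_true] at h
  obtain ⟨e0, e1, e2, e3⟩ := h
  have e0 := Nat.eq_of_beq_eq_true e0
  have e1 := Nat.eq_of_beq_eq_true e1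
  have e2 := Nat.eq_of_beq_eq_true e2
  have e3 := Nat.eq_of_beq_eq_true e3
  obtain ⟨o0, o1, o2, o3⟩ := rc_one
  ext i j
  have key : X i = (1 : M4) i := by
    fin_cases i
    · exact code_inj (e0.trans o0.symm)
    · exact code_inj (e1.trans o1.symm)
    · exact code_inj (e2.trans o2.symm)
    · exact code_inj (e3.trans o3.symm)
  exact congrFun key j

lemma step (S S' : M4) (π : Fin 8 → Fin 8) (hS : S' * S = 1) (hS' : S * S' = 1)
    (hπ : ∀ Z : M4, RInv Z → g₀ (S' * Z) = g₀ Z ∘ π) (X Y : M4) (hX : RInv X) (hY : RInv Y)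
    (ih : g₀ (S * X * Y) = g₀ Y ∘ g₀ (S * X)) : g₀ (X * Y) = g₀ Y ∘ g₀ X := by
  have hX₁ : RInv (S * X) := RInv.mul ⟨S', hS'⟩ hX
  have e : X = S' * (S * X) := by rw [← Matrix.mul_assoc, hS, Matrix.one_mul]
  have e2 : X * Y = S' * (S * X * Y) := by
    rw [← Matrix.mul_assoc S', ← e]
  calc g₀ (X * Y) = g₀ (S' * (S * X * Y)) := by rw [← e2]
    _ = g₀ (S * X * Y) ∘ π := hπ _ (RInv.mul hX₁ hY)
    _ = (g₀ Y ∘ g₀ (S * X)) ∘ π := by rw [ih]
    _ = g₀ Y ∘ (g₀ (S * X) ∘ π) := rfl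
    _ = g₀ Y ∘ g₀ (S' * (S * X)) := by rw [hπ _ hX₁]
    _ = g₀ Y ∘ g₀ X := by rw [← e]

/-- anti-multiplicativity of the table map on invertible matrices -/
theorem g₀_mul (X Y : M4) (hX : RInv X) (hY : RInv Y) : g₀ (X * Y) = g₀ Y ∘ g₀ X := by
  induction h : idx X using Nat.strong_induction_on generalizing X with
  | _ n ih =>
    rcases hdesc' hX with h0 | hlt | hlt | hlt | hlt
    · rw [hzero' hX h0, Matrix.one_mul, g₀_one]
      rfl
    · exact step G0 G1 pi1 G10 G01 (fun Z hZ => g₀_G1 hZ) X Y hX hY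
        (ih _ (h ▸ hlt) (G0 * X) (RInv.mul inv_G0 hX) rfl)
    · exact step G1 G0 pi0 G01 G10 (fun Z hZ => g₀_G0 hZ) X Y hX hY
        (ih _ (h ▸ hlt) (G1 * X) (RInv.mul inv_G1 hX) rfl)
    · exact step G2 G3 pi3 G32 G23 (fun Z hZ => g₀_G3 hZ) X Y hX hY
        (ih _ (h ▸ hlt) (G2 * X) (RInv.mul inv_G2 hX) rfl)
    · exact step G3 G2 pi2 G23 G32 (fun Z hZ => g₀_G2 hZ) X Y hX hY
        (ih _ (h ▸ hlt) (G3 * X) (RInv.mul inv_G3 hX) rfl)

lemma inv_sl (g : Matrix.SpecialLinearGroup (Fin 4) (ZMod 2)) : RInv g.1 := by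
  refine ⟨(g⁻¹).1, ?_⟩
  rw [← Matrix.SpecialLinearGroup.coe_mul, mul_inv_cancel]
  rfl

/-- the homomorphism `SL₄(2) → End (Fin 8)` -/
def homE : Matrix.SpecialLinearGroup (Fin 4) (ZMod 2) →* Function.End (Fin 8) where
  toFun g := g₀ (g⁻¹).1
  map_one' := by
    rw [inv_one]
    exact g₀_one
  map_mul' g h := by
    rw [_root_.mul_inv_rev, Matrix.SpecialLinearGroup.coe_mul]
    exact g₀_mul _ _ (inv_sl _) (inv_sl _)

/-- the homomorphism `SL₄(2) → S₈` -/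
def hom : Matrix.SpecialLinearGroup (Fin 4) (ZMod 2) →* Equiv.Perm (Fin 8) :=
  (Equiv.Perm.equivUnitsEnd (α := Fin 8)).symm.toMonoidHom.comp homE.toHomUnits

lemma hom_apply (g : Matrix.SpecialLinearGroup (Fin 4) (ZMod 2)) (j : Fin 8) :
    hom g j = g₀ (g⁻¹).1 j := rfl

lemma zmod2_unit : ∀ x : ZMod 2, x ≠ 0 → x = 1 := by decide

lemma det_G0 : G0.det = 1 := by
  apply zmod2_unit
  intro h
  have := congrArg Matrix.det G01
  rw [Matrix.det_mul, h, zero_mul, Matrix.det_one] at this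
  exact zero_ne_one this

lemma det_G1 : G1.det = 1 := by
  apply zmod2_unit
  intro h
  have := congrArg Matrix.det G10
  rw [Matrix.det_mul, h, zero_mul, Matrix.det_one] at this
  exact zero_ne_one this

def sG0 : Matrix.SpecialLinearGroup (Fin 4) (ZMod 2) := ⟨G0, det_G0⟩
def sG1 : Matrix.SpecialLinearGroup (Fin 4) (ZMod 2) := ⟨G1, det_G1⟩

lemma hom_nontrivial : ∃ g : Matrix.SpecialLinearGroup (Fin 4) (ZMod 2), hom g ≠ 1 := by
  refine ⟨sG1, ?_⟩
  intro h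
  have h1 : sG1⁻¹ = sG0 := by
    apply inv_eq_of_mul_eq_one_right
    apply Subtype.ext
    exact G10
  have h2 := hom_apply sG1 0
  rw [h, h1] at h2
  have h3 : g₀ G0 = pi0 := by
    have := g₀_G0 (X := 1) ⟨1, Matrix.one_mul 1⟩
    rw [Matrix.mul_one, g₀_one] at this
    exact this
  change (0 : Fin 8) = g₀ G0 0 at h2
  rw [h3] at h2
  revert h2
  decide

/-- `PSL₄(2) ≅ A₈` -/
theorem psl42_equiv_alt8 {F : Type*} [Field F] [Fintype F] (hF : Fintype.card F = 2) :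
    Nonempty (Matrix.ProjectiveSpecialLinearGroup (Fin 4) F ≃* alternatingGroup (Fin 8)) := by
  classical
  have : Fact (Nat.Prime 2) := ⟨by norm_num⟩
  let eF : ZMod 2 ≃+* F := ZMod.ringEquivOfPrime F (by norm_num) hF
  let ψ : Matrix.SpecialLinearGroup (Fin 4) F →* Equiv.Perm (Fin 8) :=
    hom.comp (slMapEquiv eF).symm.toMonoidHom
  have hs : IsSimpleGroup (Matrix.ProjectiveSpecialLinearGroup (Fin 4) F) :=
    H6.psl_isSimpleGroup 4 (by norm_num)
  have hZ : Subgroup.center (Matrix.SpecialLinearGroup (Fin 4) F) = ⊥ := by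
    apply Subgroup.card_eq_one.mp
    rw [H6.card_center_sl hF 4 (by norm_num)]
    rfl
  have hc : Subgroup.center (Matrix.SpecialLinearGroup (Fin 4) F) ≤ ψ.ker := by
    rw [hZ]
    exact bot_le
  have hnt : ∃ g, ψ g ≠ 1 := by
    obtain ⟨g₀, hg₀⟩ := hom_nontrivial
    refine ⟨slMapEquiv eF g₀, ?_⟩
    intro h
    apply hg₀
    change hom ((slMapEquiv eF).symm (slMapEquiv eF g₀)) = 1 at h
    rwa [MulEquiv.symm_apply_apply] at h
  have hinj := lift_center_injective ψ hc hnt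
  have hcard : Nat.card (Matrix.ProjectiveSpecialLinearGroup (Fin 4) F) * 2 =
      Nat.factorial 8 := by
    have h := Cfsg.Agent.S0243.result hF 4 (by norm_num)
    simp only [Fin.prod_univ_four] at h
    have h2 : Nat.gcd 4 (2 - 1) * ((2 - 1) *
        Nat.card (Matrix.ProjectiveSpecialLinearGroup (Fin 4) F)) = 20160 := by
      rw [h]; rfl
    have h3 : Nat.gcd 4 (2 - 1) = 1 := by decide
    rw [h3] at h2
    have h4 : Nat.factorial 8 = 40320 := by decide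
    rw [h4]
    omega
  exact equiv_alternating_of_injective 8 (by simp) (by norm_num) _ hinj hcard

end Cfsg.Agent.H6.L42
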