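import Mathlib
import Cfsg.Agent.H6.L42
import Cfsg.Agent.H6.A7Check

/-! Every copy of `A₇` in `SL₄(2) ≅ A₈` is a point stabiliser, hence `2`-transitive on the
non-zero vectors (helper6). -/

set_option autoImplicit false

namespace Cfsg.Agent.H6.A7

open Cfsg.Agent.H6.L42 Matrix

abbrev SL4 : Type := Matrix.SpecialLinearGroup (Fin 4) (ZMod 2)

lemma center_sl4 : Subgroup.center SL4 = ⊥ := by
  apply Subgroup.eq_bot_of_card_eq
  rw [H6.card_center_sl (F := ZMod 2) (q := 2) (ZMod.card 2) 4 (by norm_num)]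
  rfl

lemma hom_injective : Function.Injective hom := by
  have hs : IsSimpleGroup (SL4 ⧸ Subgroup.center SL4) :=
    H6.psl_isSimpleGroup (F := ZMod 2) 4 (by norm_num)
  have hc : Subgroup.center SL4 ≤ hom.ker := by
    rw [center_sl4]
    exact bot_le
  have hinj := lift_center_injective hom hc hom_nontrivial
  intro a b hab
  have h1 : QuotientGroup.lift (Subgroup.center SL4) hom hc (QuotientGroup.mk a) =
      QuotientGroup.lift (Subgroup.center SL4) hom hc (QuotientGroup.mk b) := by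
    simpa using hab
  have h2 := hinj h1
  rw [QuotientGroup.eq, center_sl4, Subgroup.mem_bot] at h2
  exact inv_mul_eq_one.mp h2

lemma card_alt8 : Nat.card (alternatingGroup (Fin 8)) = 20160 := by
  have h := Subgroup.card_mul_index (alternatingGroup (Fin 8))
  rw [alternatingGroup.index_eq_two, Nat.card_perm] at h
  have h4 : Nat.factorial (Nat.card (Fin 8)) = 40320 := by
    rw [Nat.card_eq_fintype_card, Fintype.card_fin]
    decide
  omega

lemma card_alt7 : Nat.card (alternatingGroup (Fin 7)) = 2520 := by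
  have h := Subgroup.card_mul_index (alternatingGroup (Fin 7))
  rw [alternatingGroup.index_eq_two, Nat.card_perm] at h
  have h4 : Nat.factorial (Nat.card (Fin 7)) = 5040 := by
    rw [Nat.card_eq_fintype_card, Fintype.card_fin]
    decide
  omega

lemma card_sl4 : Nat.card SL4 = 20160 := by
  obtain ⟨e⟩ := psl42_equiv_alt8 (F := ZMod 2) (ZMod.card 2)
  have h1 : Nat.card (Matrix.ProjectiveSpecialLinearGroup (Fin 4) (ZMod 2)) = 20160 :=
    (Nat.card_congr e.toEquiv).trans card_alt8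
  have h3 := Subgroup.card_eq_card_quotient_mul_card_subgroup (Subgroup.center SL4)
  have h4 : Nat.card (Subgroup.center SL4) = 1 := by
    rw [center_sl4]
    exact Subgroup.card_bot
  rw [h4, mul_one] at h3
  rw [h3]
  exact h1

lemma hom_range : hom.range = alternatingGroup (Fin 8) := by
  apply Equiv.Perm.eq_alternatingGroup_of_index_eq_two
  have h1 : Nat.card hom.range = Nat.card SL4 :=
    (Nat.card_congr (MonoidHom.ofInjective hom_injective).toEquiv).symm
  have h2 := Subgroup.card_mul_index hom.range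
  rw [h1, card_sl4, Nat.card_perm] at h2
  have h4 : Nat.factorial (Nat.card (Fin 8)) = 40320 := by
    rw [Nat.card_eq_fintype_card, Fintype.card_fin]
    decide
  omega

def a7 : Equiv.Perm (Fin 7) := Equiv.swap 0 2 * Equiv.swap 0 1
def b7 : Equiv.Perm (Fin 7) := finRotate 7

lemma a7_three : a7.IsThreeCycle :=
  Equiv.Perm.isThreeCycle_swap_mul_swap_same (by decide) (by decide) (by decide)

lemma a7_mem : a7 ∈ alternatingGroup (Fin 7) := a7_three.mem_alternatingGroup

lemma b7_mem : b7 ∈ alternatingGroup (Fin 7) := by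
  rw [Equiv.Perm.mem_alternatingGroup]
  simp only [b7, sign_finRotate]
  decide

lemma rel7 : (a7 * b7 * a7 * b7⁻¹) ^ 2 = 1 := by decide

lemma a7_pow : a7 ^ 3 = 1 := by decide

lemma order_b7 : orderOf b7 = 7 := by
  have : Fact (Nat.Prime 7) := ⟨by norm_num⟩
  exact orderOf_eq_prime (by decide) (by decide)

lemma trans7 : ∀ i j : Fin 7, ∃ k : Fin 7, (b7 ^ k.val) i = j := by decide

lemma gen7 : alternatingGroup (Fin 7) ≤ Subgroup.closure {a7, b7} := by
  have : MulAction.IsPretransitive (Subgroup.closure ({a7, b7} : Set (Equiv.Perm (Fin 7)))) (Fin 7) := by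
    refine ⟨fun i j => ?_⟩
    obtain ⟨k, hk⟩ := trans7 i j
    exact ⟨⟨b7 ^ k.val, pow_mem (Subgroup.subset_closure (by simp)) _⟩, hk⟩
  have hprim : MulAction.IsPreprimitive (Subgroup.closure ({a7, b7} : Set (Equiv.Perm (Fin 7)))) (Fin 7) :=
    MulAction.IsPreprimitive.of_prime_card (by simp; norm_num)
  exact Equiv.Perm.alternatingGroup_le_of_isPreprimitive_of_isThreeCycle_mem hprim a7_three
    (Subgroup.subset_closure (by simp))

def c7 : Equiv.Perm (Fin 8) := Fin.cycleRange 6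

lemma c7_cycle : c7.IsCycle := Fin.isCycle_cycleRange (by decide)

lemma c7_support : c7.support.card = 7 := by
  have h : c7.cycleType = {((6 : Fin 8) : ℕ) + 1} := Fin.cycleType_cycleRange (by decide)
  rw [c7_cycle.cycleType] at h
  simpa using h

lemma c7_fy : ∀ j : Fin 8, (c7 j).val = fy j.val := by decide
lemma c7_fyi : ∀ j : Fin 8, (c7⁻¹ j).val = fyi j.val := by decide
lemma c7_fix : c7 7 = 7 := by decide


lemma dcon_eq (j : Fin 8) : dcon j = Nat.mul 32 (Nat.pow 8 j.val) := by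
  fin_cases j <;> rfl

/-- the table digits represent the permutation -/
lemma hom_fx (g : SL4) (j : Fin 8) : (hom g j).val = fx (val (g⁻¹).1) j.val := by
  rw [hom_apply]
  simp only [g₀, dg, fx]
  rw [dcon_eq]

theorem K1 (g : SL4) (h3 : hom g ^ 3 = 1) (hw : (hom g * c7 * hom g * c7⁻¹) ^ 2 = 1) :
    hom g 7 = 7 := by
  have hX : RInv (g⁻¹).1 := inv_sl g⁻¹
  have h := chk_of_inv hA hX
  have hv : look (rc (g⁻¹).1 0) (rc (g⁻¹).1 1) (rc (g⁻¹).1 2) (rc (g⁻¹).1 3) = val (g⁻¹).1 := rfl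
  simp only [chkA, hv] at h
  have e1 : eq8 (fun j => fx (val (g⁻¹).1) (fx (val (g⁻¹).1) (fx (val (g⁻¹).1) j))) = true := by
    apply eq8_of
    intro n hn
    have h1 : (hom g ^ 3) (⟨n, hn⟩ : Fin 8) = ⟨n, hn⟩ := by rw [h3]; rfl
    have h2 : hom g (hom g (hom g (⟨n, hn⟩ : Fin 8))) = ⟨n, hn⟩ := by
      simpa [pow_succ, Equiv.Perm.mul_apply] using h1
    have h4 := congrArg Fin.val h2
    rw [hom_fx, hom_fx, hom_fx] at h4
    exact h4
  have e2 : eq8 (fun j => wd (val (g⁻¹).1) (wd (val (g⁻¹).1) j)) = true := by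
    apply eq8_of
    intro n hn
    have h1 : ((hom g * c7 * hom g * c7⁻¹) ^ 2) (⟨n, hn⟩ : Fin 8) = ⟨n, hn⟩ := by rw [hw]; rfl
    have h2 : hom g (c7 (hom g (c7⁻¹ (hom g (c7 (hom g (c7⁻¹ (⟨n, hn⟩ : Fin 8)))))))) = ⟨n, hn⟩ := by
      simpa [pow_succ, Equiv.Perm.mul_apply] using h1
    have h4 := congrArg Fin.val h2
    rw [hom_fx, c7_fy, hom_fx, c7_fyi, hom_fx, c7_fy, hom_fx, c7_fyi] at h4
    exact h4
  simp only [imp, e1, e2, Bool.not_true, Bool.false_or, Bool.or_false] at h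
  have h5 := Nat.eq_of_beq_eq_true h
  apply Fin.ext
  rw [hom_fx]
  exact h5

/-- a copy of `A₇` in `S₈` fixes a point -/
theorem fix_point (ι : alternatingGroup (Fin 7) →* Equiv.Perm (Fin 8))
    (hι : Function.Injective ι) : ∃ p : Fin 8, ∀ k, ι k p = p := by
  let a' : alternatingGroup (Fin 7) := ⟨a7, a7_mem⟩
  let b' : alternatingGroup (Fin 7) := ⟨b7, b7_mem⟩
  have hb : orderOf (ι b') = 7 := by
    rw [orderOf_injective ι hι, ← Subgroup.orderOf_coe]
    exact order_b7
  have hcyc : (ι b').IsCycle :=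
    Equiv.Perm.isCycle_of_prime_order' (by rw [hb]; norm_num) (by rw [hb]; simp)
  have hsupp : (ι b').support.card = c7.support.card := by
    rw [← hcyc.orderOf, hb, c7_support]
  obtain ⟨c, hc⟩ := isConj_iff.mp (hcyc.isConj c7_cycle hsupp)
  have ha3 : a' ^ 3 = 1 := Subtype.ext a7_pow
  have hrel : (a' * b' * a' * b'⁻¹) ^ 2 = 1 := Subtype.ext rel7
  have hx3 : (c * ι a' * c⁻¹) ^ 3 = 1 := by
    rw [conj_pow, ← map_pow, ha3, map_one, mul_one, mul_inv_cancel]
  have hxA : c * ι a' * c⁻¹ ∈ alternatingGroup (Fin 8) := by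
    rw [Equiv.Perm.mem_alternatingGroup]
    have h1 : Equiv.Perm.sign (c * ι a' * c⁻¹) ^ 3 = 1 := by rw [← map_pow, hx3, map_one]
    rcases Int.units_eq_one_or (Equiv.Perm.sign (c * ι a' * c⁻¹)) with h | h
    · exact h
    · rw [h] at h1
      exact absurd h1 (by decide)
  obtain ⟨g, hg⟩ : ∃ g, hom g = c * ι a' * c⁻¹ := by
    rw [← hom_range] at hxA
    exact hxA
  have hw : (c * ι a' * c⁻¹ * c7 * (c * ι a' * c⁻¹) * c7⁻¹) ^ 2 = 1 := by
    have e : c * ι a' * c⁻¹ * c7 * (c * ι a' * c⁻¹) * c7⁻¹ =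
        c * ι (a' * b' * a' * b'⁻¹) * c⁻¹ := by
      rw [← hc]
      simp only [map_mul, map_inv]
      group
    rw [e, conj_pow, ← map_pow, hrel, map_one, mul_one, mul_inv_cancel]
  have h7 : (c * ι a' * c⁻¹) 7 = 7 := by
    rw [← hg] at hx3 hw ⊢
    exact K1 g hx3 hw
  refine ⟨c⁻¹ 7, ?_⟩
  let Q : Subgroup (alternatingGroup (Fin 7)) :=
    (MulAction.stabilizer (Equiv.Perm (Fin 8)) (c⁻¹ 7)).comap ι
  have hQ : ∀ k, k ∈ Q ↔ ι k (c⁻¹ 7) = c⁻¹ 7 := fun k => by
    simp only [Q, Subgroup.mem_comap, MulAction.mem_stabilizer_iff, Equiv.Perm.smul_def]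
  have ha : a' ∈ Q := by
    rw [hQ]
    have : c⁻¹ ((c * ι a' * c⁻¹) 7) = c⁻¹ 7 := by rw [h7]
    simpa [Equiv.Perm.mul_apply] using this
  have hb' : b' ∈ Q := by
    rw [hQ]
    have : c⁻¹ ((c * ι b' * c⁻¹) 7) = c⁻¹ 7 := by rw [hc, c7_fix]
    simpa [Equiv.Perm.mul_apply] using this
  intro k
  rw [← hQ]
  have hk : (k : Equiv.Perm (Fin 7)) ∈ Subgroup.closure {a7, b7} := gen7 k.2
  have hle : Subgroup.closure {a7, b7} ≤ Q.map (alternatingGroup (Fin 7)).subtype := by
    rw [Subgroup.closure_le]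
    rintro y (rfl | rfl)
    · exact ⟨a', ha, rfl⟩
    · exact ⟨b', hb', rfl⟩
  obtain ⟨q, hq, hqk⟩ := hle hk
  have : q = k := Subtype.ext hqk
  exact this ▸ hq


lemma det_G2 : G2.det = 1 := by
  apply zmod2_unit
  intro h
  have := congrArg Matrix.det G23
  rw [Matrix.det_mul, h, zero_mul, Matrix.det_one] at this
  exact zero_ne_one this

lemma det_G3 : G3.det = 1 := by
  apply zmod2_unit
  intro h
  have := congrArg Matrix.det G32
  rw [Matrix.det_mul, h, zero_mul, Matrix.det_one] at this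
  exact zero_ne_one this

def sG2 : SL4 := ⟨G2, det_G2⟩
def sG3 : SL4 := ⟨G3, det_G3⟩

lemma g₀_G0' : g₀ G0 = pi0 := by
  have := g₀_G0 (X := 1) ⟨1, Matrix.one_mul 1⟩
  rwa [Matrix.mul_one, g₀_one] at this

lemma g₀_G1' : g₀ G1 = pi1 := by
  have := g₀_G1 (X := 1) ⟨1, Matrix.one_mul 1⟩
  rwa [Matrix.mul_one, g₀_one] at this

lemma g₀_G2' : g₀ G2 = pi2 := by
  have := g₀_G2 (X := 1) ⟨1, Matrix.one_mul 1⟩
  rwa [Matrix.mul_one, g₀_one] at this

lemma g₀_G3' : g₀ G3 = pi3 := by
  have := g₀_G3 (X := 1) ⟨1, Matrix.one_mul 1⟩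
  rwa [Matrix.mul_one, g₀_one] at this

lemma hom_sG0 (j : Fin 8) : hom sG0 j = pi1 j := by
  have h1 : sG0⁻¹ = sG1 := inv_eq_of_mul_eq_one_right (Subtype.ext G01)
  rw [hom_apply, h1]
  exact congrFun g₀_G1' j

lemma hom_sG1 (j : Fin 8) : hom sG1 j = pi0 j := by
  have h1 : sG1⁻¹ = sG0 := inv_eq_of_mul_eq_one_right (Subtype.ext G10)
  rw [hom_apply, h1]
  exact congrFun g₀_G0' j

lemma hom_sG2 (j : Fin 8) : hom sG2 j = pi3 j := by
  have h1 : sG2⁻¹ = sG3 := inv_eq_of_mul_eq_one_right (Subtype.ext G23)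
  rw [hom_apply, h1]
  exact congrFun g₀_G3' j

lemma hom_sG3 (j : Fin 8) : hom sG3 j = pi2 j := by
  have h1 : sG3⁻¹ = sG2 := inv_eq_of_mul_eq_one_right (Subtype.ext G32)
  rw [hom_apply, h1]
  exact congrFun g₀_G2' j

/-- the generators by index -/
def gen (i : ℕ) : SL4 := if i = 0 then sG0 else if i = 1 then sG1 else if i = 2 then sG2 else sG3

lemma actV_spec (i : ℕ) (hi : i < 4) (u : Fin 4 → ZMod 2) :
    code ((gen i).1 *ᵥ u) = actV i (code u) := by
  interval_cases i
  · revert u; decide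
  · revert u; decide
  · revert u; decide
  · revert u; decide

lemma actP_spec (i : ℕ) (hi : i < 4) (p : Fin 8) : (hom (gen i) p).val = actP i p.val := by
  interval_cases i
  · rw [show gen 0 = sG0 from rfl, hom_sG0]; revert p; decide
  · rw [show gen 1 = sG1 from rfl, hom_sG1]; revert p; decide
  · rw [show gen 2 = sG2 from rfl, hom_sG2]; revert p; decide
  · rw [show gen 3 = sG3 from rfl, hom_sG3]; revert p; decide

/-- the group element of a word -/
def wordOf : ℕ → ℕ → SL4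
  | 0, _ => 1
  | n + 1, w => gen (w % 4) * wordOf n (w / 4)

lemma runV_spec (n w : ℕ) (u : Fin 4 → ZMod 2) :
    code ((wordOf n w).1 *ᵥ u) = runV n w (code u) := by
  induction n generalizing w with
  | zero => simp [wordOf, runV]
  | succ n ih =>
    have h1 : (wordOf (n + 1) w).1 *ᵥ u = (gen (w % 4)).1 *ᵥ ((wordOf n (w / 4)).1 *ᵥ u) := by
      rw [Matrix.mulVec_mulVec]
      rfl
    rw [h1, actV_spec _ (Nat.mod_lt _ (by norm_num)), ih]
    rfl

lemma runP_spec (n w : ℕ) (p : Fin 8) : (hom (wordOf n w) p).val = runP n w p.val := by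
  induction n generalizing w with
  | zero => simp [wordOf, runP]
  | succ n ih =>
    have h1 : hom (wordOf (n + 1) w) p = hom (gen (w % 4)) (hom (wordOf n (w / 4)) p) := by
      change hom (gen (w % 4) * wordOf n (w / 4)) p = _
      rw [map_mul]
      rfl
    rw [h1, actP_spec _ (Nat.mod_lt _ (by norm_num)), ih]
    rfl

lemma code_ne_zero {v : Fin 4 → ZMod 2} (hv : v ≠ 0) : code v ≠ 0 := fun h =>
  hv (code_inj (h.trans code_zero.symm))

theorem K2 (p : Fin 8) (v w : Fin 4 → ZMod 2) (hv : v ≠ 0) (hw : w ≠ 0) (hvw : v ≠ w) :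
    ∃ g : SL4, hom g p = p ∧ g.1 *ᵥ ![1, 0, 0, 0] = v ∧ g.1 *ᵥ ![0, 1, 0, 0] = w := by
  have h1 := all16_spec (all16_spec (all8_spec hW p.val p.isLt) (code v) (code_lt v)) (code w)
    (code_lt w)
  have hval : validVW (code v) (code w) = true := by
    simp only [validVW, Bool.and_eq_true, nz_iff, Bool.not_eq_true']
    refine ⟨code_ne_zero hv, code_ne_zero hw, ?_⟩
    cases hb : Nat.beq (code v) (code w)
    · rfl
    · exact absurd (code_inj (Nat.eq_of_beq_eq_true hb)) hvw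
  simp only [imp, hval, Bool.not_true, Bool.false_or, chkW, Bool.and_eq_true] at h1
  obtain ⟨e1, e2, e3⟩ := h1
  have e1 := Nat.eq_of_beq_eq_true e1
  have e2 := Nat.eq_of_beq_eq_true e2
  have e3 := Nat.eq_of_beq_eq_true e3
  refine ⟨wordOf (Nat.mod (slot p.val (code v) (code w)) 32)
    (Nat.div (slot p.val (code v) (code w)) 32), ?_, ?_, ?_⟩
  · apply Fin.ext
    rw [runP_spec]
    exact e3
  · apply code_inj
    rw [runV_spec]
    exact e1
  · apply code_inj
    rw [runV_spec]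
    exact e2


/-- the stabiliser of a point, pulled back to `SL₄(2)` -/
def stab (p : Fin 8) : Subgroup SL4 := (MulAction.stabilizer (Equiv.Perm (Fin 8)) p).comap hom

lemma mem_stab (p : Fin 8) (g : SL4) : g ∈ stab p ↔ hom g p = p := by
  simp [stab, MulAction.mem_stabilizer_iff]

lemma hom_mem_alt (g : SL4) : hom g ∈ alternatingGroup (Fin 8) := by
  rw [← hom_range]
  exact ⟨g, rfl⟩

lemma card_stab_alt (p : Fin 8) :
    Nat.card (MulAction.stabilizer (alternatingGroup (Fin 8)) p) = 2520 := by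
  have : MulAction.IsPretransitive (alternatingGroup (Fin 8)) (Fin 8) :=
    alternatingGroup.isPretransitive_of_three_le_card (Fin 8) (by simp)
  have h1 := MulAction.index_stabilizer_of_transitive (alternatingGroup (Fin 8)) p
  have h2 := Subgroup.card_mul_index (MulAction.stabilizer (alternatingGroup (Fin 8)) p)
  rw [h1, card_alt8] at h2
  have h3 : Nat.card (Fin 8) = 8 := by simp
  rw [h3] at h2
  omega

lemma card_stab (p : Fin 8) : Nat.card (stab p) ≤ 2520 := by
  rw [← card_stab_alt p]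
  let f : stab p → MulAction.stabilizer (alternatingGroup (Fin 8)) p := fun g =>
    ⟨⟨hom g.1, hom_mem_alt g.1⟩, by
      rw [MulAction.mem_stabilizer_iff]
      exact (mem_stab p g.1).mp g.2⟩
  have hf : Function.Injective f := by
    intro g h hgh
    apply Subtype.ext
    apply hom_injective
    have := congrArg (fun x : MulAction.stabilizer (alternatingGroup (Fin 8)) p =>
      ((x : alternatingGroup (Fin 8)) : Equiv.Perm (Fin 8))) hgh
    exact this
  exact Nat.card_le_card_of_injective f hf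

/-- every copy of `A₇` in `SL₄(2)` is `2`-transitive on the non-zero vectors -/
theorem model (K : Subgroup SL4) (hK : Nonempty (K ≃* alternatingGroup (Fin 7)))
    (v w v' w' : Fin 4 → ZMod 2) (hv : v ≠ 0) (hw : w ≠ 0) (hvw : v ≠ w)
    (hv' : v' ≠ 0) (hw' : w' ≠ 0) (hvw' : v' ≠ w') :
    ∃ g ∈ K, g.1 *ᵥ v = v' ∧ g.1 *ᵥ w = w' := by
  obtain ⟨e⟩ := hK
  let ι : alternatingGroup (Fin 7) →* Equiv.Perm (Fin 8) :=
    hom.comp (K.subtype.comp e.symm.toMonoidHom)
  have hι : Function.Injective ι :=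
    hom_injective.comp (K.subtype_injective.comp e.symm.injective)
  obtain ⟨p, hp⟩ := fix_point ι hι
  have hle : K ≤ stab p := by
    intro g hg
    rw [mem_stab]
    have := hp (e ⟨g, hg⟩)
    simpa [ι] using this
  have hcardK : Nat.card K = 2520 := (Nat.card_congr e.toEquiv).trans card_alt7
  have hKeq : K = stab p :=
    Subgroup.eq_of_le_of_card_ge hle (by rw [hcardK]; exact card_stab p)
  obtain ⟨g₁, h1p, h1v, h1w⟩ := K2 p v w hv hw hvw
  obtain ⟨g₂, h2p, h2v, h2w⟩ := K2 p v' w' hv' hw' hvw'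
  have hinv : ∀ u : Fin 4 → ZMod 2, (g₁⁻¹).1 *ᵥ (g₁.1 *ᵥ u) = u := by
    intro u
    rw [Matrix.mulVec_mulVec, ← Matrix.SpecialLinearGroup.coe_mul, inv_mul_cancel]
    simp
  refine ⟨g₂ * g₁⁻¹, ?_, ?_, ?_⟩
  · rw [hKeq]
    exact mul_mem ((mem_stab p g₂).mpr h2p) (inv_mem ((mem_stab p g₁).mpr h1p))
  · rw [Matrix.SpecialLinearGroup.coe_mul, ← Matrix.mulVec_mulVec, ← h1v, hinv, h2v]
  · rw [Matrix.SpecialLinearGroup.coe_mul, ← Matrix.mulVec_mulVec, ← h1w, hinv, h2w]

/-- `SL₄(2)` contains a copy of `A₇` -/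
theorem exists_alt7 : ∃ f : alternatingGroup (Fin 7) →* SL4, Function.Injective f := by
  classical
  let emb : Fin 7 ↪ Fin 8 := Fin.castSuccEmb
  let ι₀ : alternatingGroup (Fin 7) →* Equiv.Perm (Fin 8) :=
    (Equiv.Perm.viaEmbeddingHom emb).comp (alternatingGroup (Fin 7)).subtype
  have h₀ : Function.Injective ι₀ :=
    (Equiv.Perm.viaEmbeddingHom_injective emb).comp (Subgroup.subtype_injective _)
  have hmem : ∀ k, ι₀ k ∈ hom.range := by
    intro k
    rw [hom_range, Equiv.Perm.mem_alternatingGroup]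
    change Equiv.Perm.sign (Equiv.Perm.viaEmbedding k.1 emb) = 1
    rw [Equiv.Perm.viaEmbedding, Equiv.Perm.sign_extendDomain]
    exact k.2
  let ι₁ : alternatingGroup (Fin 7) →* hom.range := ι₀.codRestrict hom.range hmem
  have h₁ : Function.Injective ι₁ := by
    intro x y hxy
    apply h₀
    exact congrArg Subtype.val hxy
  refine ⟨(MonoidHom.ofInjective hom_injective).symm.toMonoidHom.comp ι₁, ?_⟩
  intro x y hxy
  apply h₁
  exact (MonoidHom.ofInjective hom_injective).symm.injective hxy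

end Cfsg.Agent.H6.A7
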