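import Cfsg.Agent.H6.McLCenChk
import Cfsg.Agent.H6.McLOut2

/-!
# The centraliser of an involution of the McLaughlin group on 275 points (helper6)

The concrete side of the team project S2132: in `K` (the group generated by `px`, `py` on the 275
table vectors) all involutions are conjugate, the centraliser `Cy` of `py` has at most 40320
elements, acts on the 35 fixed points of `py`, and contains two elements acting on the labels of
the fixed points as a 3-cycle and a 7-cycle, and an element with square `py`.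
-/

set_option autoImplicit false

namespace Cfsg.Agent.H6.McL

open Cfsg Cfsg.Agent.H9 Cfsg.Agent.H93 Cfsg.Agent.H33

/-! ### Elements given by codes -/

theorem nodeP_sound : ∀ l : List ℕ, (∀ k ∈ l, k < 671) →
    ∃ g ∈ K, ∀ p : Fin 275, (g p).val = nodeP l p.val
  | [] => fun _ => ⟨1, K.one_mem, fun _ => rfl⟩
  | k :: l => fun h => by
    obtain ⟨g, hg, r⟩ := node_sound k (h k List.mem_cons_self)
    obtain ⟨g', hg', r'⟩ := nodeP_sound l (fun k hk => h k (List.mem_cons_of_mem _ hk))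
    refine ⟨g * g', K.mul_mem hg hg', fun p => ?_⟩
    rw [Equiv.Perm.mul_apply, r, r']
    rfl

theorem mem_of_chkNl {c ci : ℕ} (h : invOK c ci = true) {l : List ℕ} (hl : chkNl c l = true) :
    permOf c ci h ∈ K := by
  simp only [chkNl, Bool.and_eq_true, List.all_eq_true, Nat.blt_eq] at hl
  obtain ⟨g, hg, r⟩ := nodeP_sound l (fun k hk => hl.1 k hk)
  have e : permOf c ci h = g := Equiv.ext fun p => Fin.ext (by
    rw [r]
    exact (allB_beq _ _ _).mp hl.2 p.val p.isLt)
  rw [e]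
  exact hg

theorem comm_of_chkCm {c ci : ℕ} (h : invOK c ci = true) (hc : chkCm c = true) :
    permOf c ci h * py = py * permOf c ci h :=
  Equiv.ext fun p => Fin.ext
    ((allB_beq (fun p => f16 c (f16 cY p)) (fun p => f16 cY (f16 c p)) 275).mp hc p.val p.isLt)

/-- the centraliser of `py` in `K` -/
abbrev Cy : Subgroup ↥K := Subgroup.centralizer ({yh} : Set ↥K)

theorem mem_Cy {g : ↥K} : g ∈ Cy ↔ g.1 * py = py * g.1 := by
  rw [Subgroup.mem_centralizer_iff]
  constructor
  · intro h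
    exact (congrArg Subtype.val (h yh rfl)).symm
  · rintro h _ rfl
    exact Subtype.ext h.symm

/-- the involution, in its centraliser -/
def tC : ↥Cy := ⟨yh, mem_Cy.mpr rfl⟩

/-- an element of the centraliser acting as a 3-cycle -/
def c1C : ↥Cy := ⟨⟨permOf cC1 cC1i cC1_ok, mem_of_chkNl cC1_ok cC1_nl⟩,
  mem_Cy.mpr (comm_of_chkCm cC1_ok cC1_cm)⟩

/-- an element of the centraliser acting as a 7-cycle -/
def c2C : ↥Cy := ⟨⟨permOf cC2 cC2i cC2_ok, mem_of_chkNl cC2_ok cC2_nl⟩,
  mem_Cy.mpr (comm_of_chkCm cC2_ok cC2_cm)⟩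

/-- an element of the centraliser with square `py` -/
def gC : ↥Cy := ⟨⟨permOf cGq cGqi cGq_ok, mem_of_chkNl cGq_ok cGq_nl⟩,
  mem_Cy.mpr (comm_of_chkCm cGq_ok cGq_cm)⟩

theorem gC_sq : gC * gC = tC :=
  Subtype.ext (Subtype.ext (Equiv.ext fun p => Fin.ext
    ((allB_beq (fun p => f16 cGq (f16 cGq p)) (fun p => f16 cY p) 275).mp cGq_sq p.val p.isLt)))

theorem tC_ne : tC ≠ 1 := fun e => yh_ne (congrArg Subtype.val e)

theorem tC_central (c : ↥Cy) : c * tC = tC * c :=
  Subtype.ext (Subtype.ext (mem_Cy.mp c.2))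

/-! ### The action on the fixed points -/

/-- the fixed points of `py` -/
abbrev Fx : Type := {p : Fin 275 // py p = p}

theorem Cy_fix (c : ↥Cy) (p : Fx) : py (c.1.1 p.1) = c.1.1 p.1 := by
  have h := congrArg (fun f : Equiv.Perm (Fin 275) => f p.1) (mem_Cy.mp c.2)
  simp only [Equiv.Perm.mul_apply, p.2] at h
  exact h.symm

instance actFx : MulAction ↥Cy Fx where
  smul c p := ⟨c.1.1 p.1, Cy_fix c p⟩
  one_smul _ := Subtype.ext rfl
  mul_smul _ _ _ := Subtype.ext rfl

theorem smul_Fx_val (c : ↥Cy) (p : Fx) : (c • p).1 = c.1.1 p.1 := rfl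

/-- the label of a fixed point -/
def lamF (y : Fx) : Finset (Fin 8) := lamT y.1.val

theorem Fx_val (y : Fx) : f16 cY y.1.val = y.1.val := congrArg Fin.val y.2

theorem chkLam_sound (y : Fx) : ((lamT y.1.val).card = 4 ∧ (0 : Fin 8) ∈ lamT y.1.val) ∧
    f16 cMu (lamM y.1.val) = y.1.val := by
  have h := (allB_iff _ _).mp chkLam_all y.1.val y.1.isLt
  simp only [chkLam, Bool.or_eq_true, Bool.not_eq_true', Bool.and_eq_true,
    decide_eq_true_eq] at h
  rcases h with h | h
  · rw [Fx_val y, Nat.beq_refl] at h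
    exact absurd h (by decide)
  · exact ⟨h.1, Nat.eq_of_beq_eq_true h.2⟩

theorem lamF_bis (y : Fx) : (lamF y).card = 4 ∧ (0 : Fin 8) ∈ lamF y := (chkLam_sound y).1

theorem lamM_lt (p : ℕ) : lamM p < 256 := by
  have : lamM p ≤ 255 := Nat.and_le_right
  omega

theorem lamF_inj : Function.Injective lamF := by
  intro y y' e
  have e1 : mkey (mset (lamM y.1.val)) = mkey (mset (lamM y'.1.val)) := congrArg mkey e
  rw [mkey_mset ⟨_, lamM_lt _⟩, mkey_mset ⟨_, lamM_lt _⟩] at e1
  have e1' : lamM y.1.val = lamM y'.1.val := e1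
  have e2 := (chkLam_sound y).2
  rw [e1', (chkLam_sound y').2] at e2
  exact Subtype.ext (Fin.ext e2.symm)

theorem chkEq_sound {c ci : ℕ} (h : invOK c ci = true) (a : Equiv.Perm (Fin 8))
    (hc : allB (chkEq c a) 275 = true) (y : Fx) :
    lamT (f16 c y.1.val) = Cfsg.Agent.H6.Dc.bimg a (lamT y.1.val) := by
  have h := (allB_iff _ _).mp hc y.1.val y.1.isLt
  simp only [chkEq, Bool.or_eq_true, Bool.not_eq_true', decide_eq_true_eq] at h
  rcases h with h | h
  · rw [Fx_val y, Nat.beq_refl] at h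
    exact absurd h (by decide)
  · exact h

theorem lamF_c1 (y : Fx) : lamF (c1C • y) = Cfsg.Agent.H6.Dc.bimg Cfsg.Agent.H6.Dc.a1 (lamF y) :=
  chkEq_sound cC1_ok _ chkEq_1 y

theorem lamF_c2 (y : Fx) : lamF (c2C • y) = Cfsg.Agent.H6.Dc.bimg Cfsg.Agent.H6.Dc.a2 (lamF y) :=
  chkEq_sound cC2_ok _ chkEq_2 y

theorem tC_smul (y : Fx) : tC • y = y := Subtype.ext y.2

theorem card_Fx : Fintype.card Fx = 35 := by
  have h : Finset.univ.filter (fun p : Fin 275 => py p = p) =
      Finset.univ.filter (fun p : Fin 275 => f16 cY p.val = p.val) := by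
    ext p
    simp only [Finset.mem_filter, Finset.mem_univ, true_and]
    exact Fin.ext_iff
  exact (Fintype.card_subtype _).trans ((congrArg Finset.card h).trans cY_fix)

/-! ### All involutions are conjugate -/

theorem chkD_sound (j : ℕ) (hj : j < 2025) (hne : j ≠ jY) :
    dPar j < 2025 ∧ dDep (dPar j) < dDep j ∧ dI j < 11 ∧ rCj (dI j) (dPar j) = j := by
  have h := (allB_iff _ _).mp chkD_all j hj
  simp only [chkD, Bool.or_eq_true, Bool.and_eq_true, Nat.blt_eq, Nat.beq_eq] at h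
  rcases h with h | h
  · exact absurd h hne
  · exact h

theorem Rj_conj : ∀ d j (hj : j < 2025), dDep j = d → ∃ g ∈ K, Rj j hj = g * py * g⁻¹ := by
  intro d
  induction d using Nat.strong_induction_on with
  | _ d ih =>
    intro j hj hd
    by_cases h1 : j = jY
    · subst h1
      exact ⟨1, K.one_mem, by rw [Rj_y]; simp⟩
    · obtain ⟨a, b, c, e⟩ := chkD_sound j hj h1
      obtain ⟨g, hg, rg⟩ := ih (dDep (dPar j)) (by omega) (dPar j) a rfl
      obtain ⟨a', b', c'⟩ := (chkS_sound (dPar j) a).1 (dI j) c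
      have key : py * (px ^ dI j * Rj (dPar j) a * (px ^ dI j)⁻¹) * py =
          px ^ rCi (dI j) (dPar j) * Rj j hj * (px ^ rCi (dI j) (dPar j))⁻¹ := by
        refine Equiv.ext fun p => Fin.ext ?_
        rw [prep_conj a' j hj p]
        have c'' := c' p.val p.isLt
        rw [e] at c''
        rw [← c'']
        show (py ((px ^ dI j * Rj (dPar j) a * (px ^ dI j)⁻¹) (py p))).val = _
        rw [prep_py, prep_conj c (dPar j) a, prep_py]
      have e2 : Rj j hj = (px ^ rCi (dI j) (dPar j))⁻¹ *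
          (py * (px ^ dI j * Rj (dPar j) a * (px ^ dI j)⁻¹) * py) * px ^ rCi (dI j) (dPar j) := by
        rw [key]
        group
      refine ⟨(px ^ rCi (dI j) (dPar j))⁻¹ * py * px ^ dI j * g,
        K.mul_mem (K.mul_mem (K.mul_mem (K.inv_mem (K.pow_mem px_mem _)) py_mem)
          (K.pow_mem px_mem _)) hg, ?_⟩
      rw [e2, rg]
      simp only [mul_inv_rev, inv_inv, py_inv, mul_assoc]

theorem Rj_mem (j : ℕ) (hj : j < 2025) : Rj j hj ∈ K := by
  obtain ⟨g, hg, e⟩ := Rj_conj _ j hj rfl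
  rw [e]
  exact K.mul_mem (K.mul_mem hg py_mem) (K.inv_mem hg)

theorem invol_conj (hcard : Nat.card ↥K = 898128000) (t : ↥K) (h2 : t ^ 2 = 1) (h1 : t ≠ 1) :
    IsConj yh t := by
  obtain ⟨i, j, hj, e⟩ := invol_K hcard t.1 t.2 (congrArg Subtype.val h2)
    (fun e => h1 (Subtype.ext e))
  obtain ⟨g, hg, e'⟩ := Rj_conj _ j hj rfl
  rw [isConj_iff]
  refine ⟨⟨px ^ i * g, K.mul_mem (K.pow_mem px_mem i) hg⟩, Subtype.ext ?_⟩
  show px ^ i * g * py * (px ^ i * g)⁻¹ = t.1
  rw [e, e']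
  group

theorem order_two {G : Type*} [Group G] {x : G} (h : orderOf x = 2) : x ^ 2 = 1 ∧ x ≠ 1 := by
  refine ⟨by rw [← h]; exact pow_orderOf_eq_one x, fun e => ?_⟩
  rw [e, orderOf_one] at h
  exact absurd h (by decide)

theorem one_class (hcard : Nat.card ↥K = 898128000) (x y : ↥K) (hx : orderOf x = 2)
    (hy : orderOf y = 2) : IsConj x y :=
  (invol_conj hcard x (order_two hx).1 (order_two hx).2).symm.trans
    (invol_conj hcard y (order_two hy).1 (order_two hy).2)

theorem yh_order : orderOf yh = 2 := by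
  have : Fact (Nat.Prime 2) := ⟨Nat.prime_two⟩
  exact orderOf_eq_prime yh_sq yh_ne

/-! ### The order of the centraliser -/

theorem chkO_sound (m : ℕ) (hm : m + 1 < 22275) : fpK (oK m) < fpK (oK (m + 1)) := by
  have h := (allB_iff _ _).mp chkO_all m (by omega)
  simp only [chkO, Bool.or_eq_true, Nat.beq_eq, Nat.blt_eq] at h
  rcases h with h | h
  · omega
  · exact h

theorem chkQ_sound (k : ℕ) (hk : k < 22275) : qK k < 22275 ∧ oK (qK k) = k := by
  have h := (allB_iff _ _).mp chkQ_all k hk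
  simp only [chkQ, Bool.and_eq_true, Nat.blt_eq, Nat.beq_eq] at h
  exact h

/-- the 22275 involutions -/
def invP (k : Fin 22275) : Equiv.Perm (Fin 275) :=
  px ^ (k.val % 11) * Rj (k.val / 11) (by omega) * (px ^ (k.val % 11))⁻¹

theorem invP_val (k : Fin 22275) (p : Fin 275) :
    (invP k p).val = conjF (Nat.mod k.val 11) (Nat.div k.val 11) p.val :=
  prep_conj (Nat.mod_lt _ (by norm_num)) _ _ p

theorem invP_fp {k k' : Fin 22275} (e : invP k = invP k') : fpK k.val = fpK k'.val := by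
  have h : ∀ p : Fin 275, conjF (Nat.mod k.val 11) (Nat.div k.val 11) p.val =
      conjF (Nat.mod k'.val 11) (Nat.div k'.val 11) p.val := fun p => by
    rw [← invP_val, ← invP_val, e]
  unfold fpK fpC
  rw [h ⟨0, by norm_num⟩, h ⟨1, by norm_num⟩, h ⟨2, by norm_num⟩, h ⟨3, by norm_num⟩,
    h ⟨4, by norm_num⟩]

theorem invP_inj : Function.Injective invP := by
  intro k k' e
  have h1 := invP_fp e
  obtain ⟨a, b⟩ := chkQ_sound k.val k.isLt
  obtain ⟨a', b'⟩ := chkQ_sound k'.val k'.isLt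
  rw [← b, ← b'] at h1
  have h2 := inj_succ (fun m => fpK (oK m)) 22275 chkO_sound _ _ a a' h1
  apply Fin.ext
  rw [← b, ← b', h2]

theorem invP_mem (k : Fin 22275) : invP k ∈ K :=
  K.mul_mem (K.mul_mem (K.pow_mem px_mem _) (Rj_mem _ _)) (K.inv_mem (K.pow_mem px_mem _))

theorem invP_conj (k : Fin 22275) : IsConj yh (⟨invP k, invP_mem k⟩ : ↥K) := by
  obtain ⟨g, hg, e'⟩ := Rj_conj _ (k.val / 11) (by omega) rfl
  rw [isConj_iff]
  refine ⟨⟨px ^ (k.val % 11) * g, K.mul_mem (K.pow_mem px_mem _) hg⟩, Subtype.ext ?_⟩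
  show px ^ (k.val % 11) * g * py * (px ^ (k.val % 11) * g)⁻¹ = invP k
  unfold invP
  rw [e']
  group

theorem card_Cy (hCl : Cfsg.Agent.H6.Dc.StClass) (hcard : Nat.card ↥K = 898128000) :
    Nat.card ↥Cy ≤ 40320 := by
  have h := hCl ↥K yh 22275 (fun k => ⟨invP k, invP_mem k⟩)
    (fun k k' e => invP_inj (congrArg Subtype.val e)) invP_conj
  rw [hcard] at h
  have h' : 22275 * Nat.card ↥Cy ≤ 898128000 := h
  omega

/-! ### The result in `K` -/

theorem cen_K (hM : Cfsg.Agent.H6.Dc.StMain) (hCl : Cfsg.Agent.H6.Dc.StClass)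
    (hcard : Nat.card ↥K = 898128000) :
    Cfsg.IsNonsplitDoubleCover ↥Cy ↥(alternatingGroup (Fin 8)) :=
  hM ↥Cy Fx lamF tC gC c1C c2C card_Fx lamF_bis lamF_inj tC_ne tC_central tC_smul gC_sq
    lamF_c1 lamF_c2 (card_Cy hCl hcard)

end Cfsg.Agent.H6.McL
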