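import Cfsg.Agent.H6.McLCenData
import Cfsg.Agent.H6.McLChk
import Cfsg.Agent.H6.DcDefs

/-!
# Kernel-evaluated certificate checks for the centraliser of an involution of the McLaughlin
group (helper6)
-/

set_option autoImplicit false

namespace Cfsg.Agent.H6.McL

open Cfsg Cfsg.Agent.H9 Cfsg.Agent.H93 Cfsg.Agent.H33

/-- entry `j` of a table with `W`-bit entries, 256 to a leaf -/
def ent8 (t : List ℕ) (W j : ℕ) : ℕ :=
  Nat.land (Nat.shiftRight (t.getD (Nat.shiftRight j 8) 0) (Nat.mul W (Nat.land j 255)))
    (Nat.sub (Nat.pow 2 W) 1)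

/-- the image of `p` under the product of the nodes in `l` -/
def nodeP (l : List ℕ) (p : ℕ) : ℕ := l.foldr (fun k q => f16 (nC k) q) p

/-- the code `c` is the product of the nodes in `l` -/
def chkNl (c : ℕ) (l : List ℕ) : Bool :=
  l.all (fun k => Nat.blt k 671) && allB (fun p => Nat.beq (f16 c p) (nodeP l p)) 275

/-- the code `c` commutes with `y` -/
def chkCm (c : ℕ) : Bool :=
  allB (fun p => Nat.beq (f16 c (f16 cY p)) (f16 cY (f16 c p))) 275

/-! ### The labelling -/

/-- the subset of `Fin 8` with the bit mask `m` -/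
def mset (m : ℕ) : Finset (Fin 8) := Finset.univ.filter (fun i => Nat.testBit m i.val = true)

/-- the bit mask of a subset of `Fin 8` -/
def mkey (S : Finset (Fin 8)) : ℕ := ∑ i ∈ S, 2 ^ i.val

/-- the bit mask of the label of the point `p` -/
def lamM (p : ℕ) : ℕ := Nat.land (Nat.shiftRight cLam (Nat.mul 8 p)) 255

/-- the label of the point `p` -/
def lamT (p : ℕ) : Finset (Fin 8) := mset (lamM p)

/-- the labels of the fixed points are bisections, and the label determines the point -/
def chkLam (p : ℕ) : Bool :=
  !(Nat.beq (f16 cY p) p) || (decide ((lamT p).card = 4 ∧ (0 : Fin 8) ∈ lamT p) &&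
    Nat.beq (f16 cMu (lamM p)) p)

/-- the code `c` acts on the labels of the fixed points as the permutation `a` -/
def chkEq (c : ℕ) (a : Equiv.Perm (Fin 8)) (p : ℕ) : Bool :=
  !(Nat.beq (f16 cY p) p) || decide (lamT (f16 c p) = Cfsg.Agent.H6.Dc.bimg a (lamT p))

/-! ### The spanning tree -/

/-- the parent of representative `j` -/
def dPar (j : ℕ) : ℕ := fq (ent tD 32 j) 0 65535
/-- the shift of the parent -/
def dI (j : ℕ) : ℕ := fq (ent tD 32 j) 16 255
/-- the depth of representative `j` -/
def dDep (j : ℕ) : ℕ := fq (ent tD 32 j) 24 255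

/-- representative `j` is the representative of the conjugate by `y` of a shift of its parent -/
def chkD (j : ℕ) : Bool :=
  Nat.beq j jY || (Nat.blt (dPar j) 2025 && (Nat.blt (dDep (dPar j)) (dDep j) &&
    (Nat.blt (dI j) 11 && Nat.beq (rCj (dI j) (dPar j)) j)))

/-! ### The fingerprints -/

/-- the images of the points 0, …, 4 under the `i`-th shift of representative `j` -/
def fpC (i j : ℕ) : ℕ :=
  Nat.add (conjF i j 0) (Nat.mul 65536 (Nat.add (conjF i j 1) (Nat.mul 65536
    (Nat.add (conjF i j 2) (Nat.mul 65536 (Nat.add (conjF i j 3)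
      (Nat.mul 65536 (conjF i j 4))))))))

/-- the fingerprint of involution `k`: shift `k % 11` of representative `k / 11` -/
def fpK (k : ℕ) : ℕ := fpC (Nat.mod k 11) (Nat.div k 11)

/-- the `m`-th involution in the order of the fingerprints -/
def oK (m : ℕ) : ℕ := ent8 tO 16 m
/-- the position of involution `k` -/
def qK (k : ℕ) : ℕ := ent8 tQ 16 k

/-- the fingerprints increase -/
def chkO (m : ℕ) : Bool :=
  Nat.beq (m + 1) 22275 || Nat.blt (fpK (oK m)) (fpK (oK (m + 1)))

/-- the position table is a right inverse -/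
def chkQ (k : ℕ) : Bool := Nat.blt (qK k) 22275 && Nat.beq (oK (qK k)) k

/-! ### The checks -/

theorem cC1_ok : invOK cC1 cC1i = true := by decide +kernel
theorem cC2_ok : invOK cC2 cC2i = true := by decide +kernel
theorem cGq_ok : invOK cGq cGqi = true := by decide +kernel
theorem cC1_nl : chkNl cC1 nlC1 = true := by decide +kernel
theorem cC2_nl : chkNl cC2 nlC2 = true := by decide +kernel
theorem cGq_nl : chkNl cGq nlGq = true := by decide +kernel
theorem cC1_cm : chkCm cC1 = true := by decide +kernel
theorem cC2_cm : chkCm cC2 = true := by decide +kernel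
theorem cGq_cm : chkCm cGq = true := by decide +kernel
theorem cGq_sq : allB (fun p => Nat.beq (f16 cGq (f16 cGq p)) (f16 cY p)) 275 = true := by
  decide +kernel
theorem mkey_mset : ∀ m : Fin 256, mkey (mset m.val) = m.val := by decide +kernel
theorem chkLam_all : allB chkLam 275 = true := by decide +kernel
theorem chkEq_1 : allB (chkEq cC1 Cfsg.Agent.H6.Dc.a1) 275 = true := by decide +kernel
theorem chkEq_2 : allB (chkEq cC2 Cfsg.Agent.H6.Dc.a2) 275 = true := by decide +kernel
theorem chkD_all : allB chkD 2025 = true := by decide +kernel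
theorem chkO_all : allB chkO 22275 = true := by decide +kernel
theorem chkQ_all : allB chkQ 22275 = true := by decide +kernel
theorem cY_fix : (Finset.univ.filter (fun p : Fin 275 => f16 cY p.val = p.val)).card = 35 := by
  decide +kernel

end Cfsg.Agent.H6.McL
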