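import Cfsg.Agent.H6.McLCen
import Cfsg.Agent.H6.McLFinal

/-!
# The centraliser of an involution of the McLaughlin group (helper6)

Assembly for S2132 from the abstract pieces of the team project (`H6/DcDefs.lean`) and the
permutation group computation on the 275 table vectors.
-/

set_option autoImplicit false

namespace Cfsg.Agent.H6.McL

open Cfsg Cfsg.Agent.H9 Cfsg.Agent.H93 Cfsg.Agent.H33

theorem cen_mcl (hM : Cfsg.Agent.H6.Dc.StMain) (hCl : Cfsg.Agent.H6.Dc.StClass)
    (hT : Cfsg.Agent.H6.Dc.StTransfer) :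
    (∀ x y : ↥Cfsg.Spor.McL, orderOf x = 2 → orderOf y = 2 → IsConj x y) ∧
      ∃ t : ↥Cfsg.Spor.McL, orderOf t = 2 ∧
        Cfsg.IsNonsplitDoubleCover ↥(Subgroup.centralizer ({t} : Set ↥Cfsg.Spor.McL))
          ↥(alternatingGroup (Fin 8)) := by
  obtain ⟨e⟩ := K_iso.1
  have hcard := K_iso.2
  refine ⟨fun x y hx hy => ?_, e.symm yh, ?_,
    hT ↥K ↥Cfsg.Spor.McL e.symm yh (cen_K hM hCl hcard)⟩
  · have h := one_class hcard (e x) (e y) (by rw [MulEquiv.orderOf_eq]; exact hx)
      (by rw [MulEquiv.orderOf_eq]; exact hy)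
    have h2 := e.symm.toMonoidHom.map_isConj h
    simpa using h2
  · rw [MulEquiv.orderOf_eq]
    exact yh_order

end Cfsg.Agent.H6.McL
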