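import Mathlib

/-!
# S2460-K1A (team project of helper97): cyclic vector or cubic relation

An endomorphism of a 4-dimensional space either has a cyclic vector or satisfies a monic
cubic relation.  General lemma: some vector has the minimal polynomial as its annihilator.
-/

set_option autoImplicit false

namespace Cfsg.Agent.H6.Sp4K1A

open Polynomial

variable {F : Type*} [Field F] {V : Type*} [AddCommGroup V] [Module F V]

theorem aeval_mul_apply' (f : Module.End F V) (A B : F[X]) (w : V) :
    aeval f (A * B) w = aeval f A (aeval f B w) := by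
  rw [map_mul]; rfl

theorem aeval_kill (f : Module.End F V) {A B : F[X]} {w : V} (hA : aeval f A w = 0)
    (hAB : A ∣ B) : aeval f B w = 0 := by
  obtain ⟨c, rfl⟩ := hAB
  rw [mul_comm, aeval_mul_apply', hA, map_zero]

/-- some vector has annihilator generated by the minimal polynomial -/
theorem exists_ann_vec [FiniteDimensional F V] (f : Module.End F V) :
    ∃ w : V, ∀ Q : F[X], aeval f Q w = 0 → aeval f Q = 0 := by
  classical
  have hint : IsIntegral F f := Algebra.IsIntegral.isIntegral f
  have hμ0 : minpoly F f ≠ 0 := minpoly.ne_zero hint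
  have key : ∀ a : F[X], a ∣ minpoly F f → ∃ w : V, ∀ Q : F[X], aeval f Q w = 0 ↔ a ∣ Q := by
    intro a
    induction a using UniqueFactorizationMonoid.induction_on_coprime with
    | h0 => intro h; exact absurd (zero_dvd_iff.mp h) hμ0
    | h1 hx =>
      intro _
      exact ⟨0, fun Q => by simp [hx.dvd]⟩
    | @hpr p i hp =>
      intro hdvd
      rcases i with _ | k
      · exact ⟨0, fun Q => by simp⟩
      · obtain ⟨m, hm⟩ := hdvd
        have hm0 : m ≠ 0 := by
          rintro rfl
          exact hμ0 (by simpa using hm)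
        have hN : aeval f (p ^ k * m) ≠ 0 := by
          intro h0
          have hd : minpoly F f ∣ p ^ k * m := (minpoly.dvd_iff (x := f)).mpr h0
          rw [hm, pow_succ, mul_assoc] at hd
          have h1 : p * m ∣ m := (mul_dvd_mul_iff_left (pow_ne_zero k hp.ne_zero)).mp hd
          have h2 : p * m ∣ 1 * m := by simpa using h1
          have h3 : p ∣ 1 := (mul_dvd_mul_iff_right hm0).mp h2
          exact hp.not_isUnit (isUnit_of_dvd_one h3)
        obtain ⟨v, hv⟩ : ∃ v, aeval f (p ^ k * m) v ≠ 0 := by
          by_contra hcon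
          push Not at hcon
          exact hN (LinearMap.ext hcon)
        have hpk1 : aeval f (p ^ (k + 1)) (aeval f m v) = 0 := by
          rw [← aeval_mul_apply', ← hm, minpoly.aeval]; rfl
        refine ⟨aeval f m v, fun Q => ⟨fun hQ => ?_, fun hQ => aeval_kill f hpk1 hQ⟩⟩
        have hg : aeval f (EuclideanDomain.gcd Q (p ^ (k + 1))) (aeval f m v) = 0 := by
          rw [EuclideanDomain.gcd_eq_gcd_ab Q (p ^ (k + 1)), map_add, LinearMap.add_apply,
            aeval_kill f hQ (dvd_mul_right _ _), aeval_kill f hpk1 (dvd_mul_right _ _), add_zero]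
        obtain ⟨j, hj, hass⟩ :=
          (dvd_prime_pow hp _).mp (EuclideanDomain.gcd_dvd_right Q (p ^ (k + 1)))
        rcases Nat.lt_or_ge j (k + 1) with hlt | hge
        · exfalso
          have h1 : EuclideanDomain.gcd Q (p ^ (k + 1)) ∣ p ^ k :=
            hass.dvd.trans (pow_dvd_pow p (Nat.lt_succ_iff.mp hlt))
          have h2 := aeval_kill f hg h1
          rw [← aeval_mul_apply'] at h2
          exact hv h2
        · have hjk : j = k + 1 := le_antisymm hj hge
          rw [hjk] at hass
          exact hass.symm.dvd.trans (EuclideanDomain.gcd_dvd_left Q (p ^ (k + 1)))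
    | @hcp x y hxy hx hy =>
      intro hdvd
      obtain ⟨wx, hwx⟩ := hx (dvd_of_mul_right_dvd hdvd)
      obtain ⟨wy, hwy⟩ := hy (dvd_of_mul_left_dvd hdvd)
      refine ⟨wx + wy, fun Q => ⟨fun hQ => ?_, fun hQ => ?_⟩⟩
      · have h1 : x ∣ Q := by
          have h2 : aeval f (y * Q) (wx + wy) = 0 := aeval_kill f hQ (dvd_mul_left Q y)
          have h3 : aeval f (y * Q) wy = 0 := (hwy _).mpr (dvd_mul_right y Q)
          rw [map_add, h3, add_zero] at h2
          exact hxy.dvd_of_dvd_mul_left ((hwx _).mp h2)
        have h1' : y ∣ Q := by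
          have h2 : aeval f (x * Q) (wx + wy) = 0 := aeval_kill f hQ (dvd_mul_left Q x)
          have h3 : aeval f (x * Q) wx = 0 := (hwx _).mpr (dvd_mul_right x Q)
          rw [map_add, h3, zero_add] at h2
          exact hxy.symm.dvd_of_dvd_mul_left ((hwy _).mp h2)
        exact hxy.mul_dvd h1 h1'
      · rw [map_add, (hwx Q).mpr (dvd_of_mul_right_dvd hQ),
          (hwy Q).mpr (dvd_of_mul_left_dvd hQ), add_zero]
  obtain ⟨w, hw⟩ := key (minpoly F f) dvd_rfl
  exact ⟨w, fun Q hQ => (minpoly.dvd_iff (x := f)).mp ((hw Q).mp hQ)⟩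

theorem aux_div {A : Type*} [AddCommGroup A] [Module F A] (a b c d : A) (c0 c1 c2 c3 : F)
    (h3 : c3 ≠ 0) (h : c0 • d + c1 • c + c2 • b + c3 • a = 0) :
    a + (c2 / c3) • b + (c1 / c3) • c + (c0 / c3) • d = 0 := by
  have := congrArg (fun z => c3⁻¹ • z) h
  simp only [smul_add, smul_smul, smul_zero, inv_mul_cancel₀ h3, one_smul] at this
  rw [← this]
  simp only [div_eq_inv_mul]
  abel

/-- S2460-K1A: exact statement posted by helper97. -/
theorem cyclic_or_cubic {F : Type*} [Field F] {V : Type*} [AddCommGroup V] [Module F V]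
    (hd : Module.finrank F V = 4) (f : Module.End F V) :
    (∃ v, LinearIndependent F ![v, f v, f (f v), f (f (f v))]) ∨
    ∃ p q r : F, f * f * f + p • (f * f) + q • f + r • 1 = 0 := by
  have : FiniteDimensional F V := Module.finite_of_finrank_pos (by omega)
  obtain ⟨w, hw⟩ := exists_ann_vec f
  by_cases hli : LinearIndependent F ![w, f w, f (f w), f (f (f w))]
  · exact Or.inl ⟨w, hli⟩
  right
  rw [Fintype.not_linearIndependent_iff] at hli
  obtain ⟨c, hc, hne⟩ := hli
  simp only [Fin.sum_univ_four] at hc
  have hc' : c 0 • w + c 1 • f w + c 2 • f (f w) + c 3 • f (f (f w)) = 0 := by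
    simpa using hc
  have hQ := hw (C (c 0) + C (c 1) * X + C (c 2) * X ^ 2 + C (c 3) * X ^ 3) (by
    simp only [map_add, map_mul, aeval_C, aeval_X, LinearMap.add_apply,
      Module.End.mul_apply, Module.algebraMap_end_apply, pow_succ, pow_zero, one_mul]
    exact hc')
  have hrel : c 0 • (1 : Module.End F V) + c 1 • f + c 2 • (f * f) + c 3 • (f * f * f) = 0 := by
    rw [← hQ]
    simp only [map_add, map_mul, aeval_C, aeval_X, pow_succ, pow_zero, one_mul,
      Algebra.algebraMap_eq_smul_one, smul_mul_assoc]
  by_cases h3 : c 3 = 0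
  · by_cases h2 : c 2 = 0
    · by_cases h1 : c 1 = 0
      · have h0 : c 0 ≠ 0 := by
          obtain ⟨i, hi⟩ := hne
          fin_cases i
          · exact hi
          · exact absurd h1 hi
          · exact absurd h2 hi
          · exact absurd h3 hi
        rw [h1, h2, h3] at hrel
        simp only [zero_smul, add_zero] at hrel
        have h10 : (1 : Module.End F V) = 0 := by
          rcases smul_eq_zero.mp hrel with h | h
          · exact absurd h h0
          · exact h
        refine ⟨0, 0, 0, ?_⟩
        have : f * f * f = f * f * f * 1 := (mul_one _).symm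
        rw [this, h10]
        simp
      · rw [h2, h3] at hrel
        simp only [zero_smul, add_zero] at hrel
        have hrel' : (0 : F) • (1 : Module.End F V) + (0 : F) • f + c 0 • (f * f)
            + c 1 • (f * f * f) = 0 := by
          have := congrArg (fun z => z * (f * f)) hrel
          simp only [add_mul, smul_mul_assoc, one_mul, zero_mul] at this
          rw [zero_smul, zero_smul, zero_add, zero_add, ← this, mul_assoc]
        exact ⟨_, _, _, aux_div _ _ _ _ _ _ _ _ h1 hrel'⟩
    · rw [h3] at hrel
      simp only [zero_smul, add_zero] at hrel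
      have hrel' : (0 : F) • (1 : Module.End F V) + c 0 • f + c 1 • (f * f)
          + c 2 • (f * f * f) = 0 := by
        have := congrArg (fun z => z * f) hrel
        simp only [add_mul, smul_mul_assoc, one_mul, zero_mul] at this
        rw [zero_smul, zero_add, ← this]
      exact ⟨_, _, _, aux_div _ _ _ _ _ _ _ _ h2 hrel'⟩
  · exact ⟨_, _, _, aux_div _ _ _ _ _ _ _ _ h3 hrel⟩

end Cfsg.Agent.H6.Sp4K1A
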