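import Mathlib
import Cfsg.Agent.H97.Sp4Defs

/-!
# S2460-K6B (team project of helper97): `g = g₁ ⊕ 1` on `W ⊥ W'`

`W = ker (g*g - c•g + 1)`, `W' = ker (g - 1)`; everything is done elementwise with
`T = g*g - c•g + 1` (whose image is fixed by `g`) and `A v = T v - (2 - c) • v` (in `ker T`).
-/

set_option autoImplicit false
set_option linter.unusedSimpArgs false

namespace Cfsg.Agent.H6.Sp4K6B

open Matrix Cfsg.Agent.H97.Sp4

variable {F : Type*} [Field F] {V : Type*} [AddCommGroup V] [Module F V]

theorem skew {B : LinearMap.BilinForm F V} (halt : ∀ v, B v v = 0) (u v : V) :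
    B u v = - B v u := by
  have h := halt (u + v)
  simp only [map_add, LinearMap.add_apply, halt, zero_add, add_zero] at h
  exact eq_neg_of_add_eq_zero_right h

/-- S2460-K6B: exact statement posted by helper97. -/
theorem t3_data {B : LinearMap.BilinForm F V} {g : Module.End F V} (h : SpData B g) (c : F)
    (hc : c ≠ 2) (hrel : (g - 1) * (g * g - c • g + 1) = 0) (h2 : g * g - c • g + 1 ≠ 0)
    (h1 : g * g ≠ 1) :
    ∃ q₀ : F, q₀ ≠ 0 ∧ ∀ α : F, ∃ w₁ w₂ : V, B w₁ w₂ = 0 ∧ B w₁ (g w₁) = q₀ ∧
      B w₁ (g w₂) = q₀ * (α + c - 1) ∧ B w₂ (g w₁) = q₀ * (α + 1) ∧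
      B w₂ (g w₂) = q₀ * (α ^ 2 + α * c + 1) := by
  have hsk := skew h.alt
  have hc2 : (2 - c) ≠ 0 := fun h0 => hc (by linear_combination -h0)
  obtain ⟨T, hT⟩ : ∃ T : Module.End F V, T = g * g - c • g + 1 := ⟨_, rfl⟩
  have hTapp : ∀ v, T v = g (g v) - c • g v + v := fun v => by
    rw [hT]; rfl
  rw [← hT] at hrel h2
  -- the image of `T` is fixed by `g`
  have hfix : ∀ v, g (T v) = T v := by
    intro v
    have h0 := congrArg (fun e : Module.End F V => e v) hrel
    simp only [Module.End.mul_apply, LinearMap.sub_apply, Module.End.one_apply,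
      LinearMap.zero_apply] at h0
    exact sub_eq_zero.mp h0
  have hTg : ∀ v, T (g v) = g (T v) := by
    intro v
    rw [hTapp, hTapp, map_add, map_sub, map_smul]
  have hTfix : ∀ z, g z = z → T z = (2 - c) • z := by
    intro z hz
    rw [hTapp, hz, hz, sub_smul, two_smul]
    abel
  have hdec : ∀ v, ∃ z a, g z = z ∧ T a = 0 ∧ v = (2 - c)⁻¹ • (z - a) := by
    intro v
    refine ⟨T v, T v - (2 - c) • v, hfix v, ?_, ?_⟩
    · rw [map_sub, map_smul, hTfix _ (hfix v), sub_self]
    · rw [sub_sub_cancel, smul_smul, inv_mul_cancel₀ hc2, one_smul]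
  -- `ker T ⊥ ker (g - 1)`
  have hperp : ∀ a z, T a = 0 → g z = z → B a z = 0 := by
    intro a z ha hz
    have e1 : B (g a) z = B a z := by
      conv_lhs => rw [← hz]
      exact h.isom a z
    have e2 : B (g (g a)) z = B a z := by
      conv_lhs => rw [← hz]
      rw [h.isom, e1]
    have e3 : B (T a) z = 0 := by rw [ha]; simp
    rw [hTapp] at e3
    simp only [map_add, map_sub, map_smul, LinearMap.add_apply, LinearMap.sub_apply,
      LinearMap.smul_apply, smul_eq_mul, e1, e2] at e3
    have e4 : (2 - c) * B a z = 0 := by linear_combination e3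
    exact (mul_eq_zero.mp e4).resolve_left hc2
  have hperp' : ∀ a z, T a = 0 → g z = z → B z a = 0 := by
    intro a z ha hz
    rw [hsk, hperp a z ha hz, neg_zero]
  -- nondegeneracy on `ker T`
  have hndW : ∀ x, T x = 0 → (∀ a, T a = 0 → B a x = 0) → x = 0 := by
    intro x hx hall
    apply h.nondeg.2 x
    intro u
    obtain ⟨z1, a1, hz1, ha1, rfl⟩ := hdec u
    simp only [map_smul, map_sub, LinearMap.smul_apply, LinearMap.sub_apply, smul_eq_mul]
    rw [hperp' x z1 hx hz1, hall _ ha1, sub_zero, mul_zero]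
  have hgg : ∀ a, T a = 0 → g (g a) = c • g a - a := by
    intro a ha
    have := hTapp a
    rw [ha] at this
    have e : g (g a) - c • g a + a = 0 := this.symm
    have e' := eq_neg_of_add_eq_zero_left e
    rw [sub_eq_iff_eq_add] at e'
    rw [e']
    abel
  -- (iv) some `a ∈ ker T` has `B a (g a) ≠ 0`
  have hex : ∃ a, T a = 0 ∧ B a (g a) ≠ 0 := by
    by_contra hcon
    push Not at hcon
    have hpol : ∀ a b, T a = 0 → T b = 0 → B a (g b) + B b (g a) = 0 := by
      intro a b ha hb
      have h0 := hcon (a + b) (by rw [map_add, ha, hb, add_zero])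
      simp only [map_add, LinearMap.add_apply, hcon a ha, hcon b hb, zero_add, add_zero] at h0
      rw [add_comm]
      exact h0
    have hadj : ∀ a b, T b = 0 → B (g a) b = c * B a b - B a (g b) := by
      intro a b hb
      have e : b = g (c • b - g b) := by
        rw [map_sub, map_smul, hgg b hb]; abel
      conv_lhs => rw [e]
      rw [h.isom]
      simp only [map_sub, map_smul, smul_eq_mul]
    have hstar : ∀ b, T b = 0 → (2 : F) • g b = c • b := by
      intro b hb
      have hx : T ((2 : F) • g b - c • b) = 0 := by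
        rw [map_sub, map_smul, map_smul, hTg, hb, map_zero, smul_zero, smul_zero, sub_zero]
      have := hndW _ hx (fun a ha => by
        have e1 := hpol a b ha hb
        have e2 := hadj a b hb
        have e3 := hsk b (g a)
        simp only [map_sub, map_smul, smul_eq_mul]
        linear_combination e1 + e2 - e3)
      exact sub_eq_zero.mp this
    have hinv : ∀ b, T b = 0 → g (g b) = b := by
      intro b hb
      by_cases h20 : (2 : F) = 0
      · have e := hstar b hb
        rw [h20, zero_smul] at e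
        have hc0 : c ≠ 0 := fun h0 => hc (by rw [h0, h20])
        have hb0 : b = 0 := by
          rcases smul_eq_zero.mp e.symm with h' | h'
          · exact absurd h' hc0
          · exact h'
        rw [hb0, map_zero, map_zero]
      · obtain ⟨d, hd⟩ : ∃ d, c = 2 * d := ⟨c / 2, by field_simp⟩
        have e : g b = d • b := by
          have e0 := congrArg (fun x => (2 : F)⁻¹ • x) (hstar b hb)
          simp only [smul_smul, inv_mul_cancel₀ h20, one_smul] at e0
          rw [e0, hd, ← mul_assoc, inv_mul_cancel₀ h20, one_mul]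
        have e' : g (g b) = (d * d) • b := by
          rw [e, map_smul, e, smul_smul]
        have e'' := hgg b hb
        rw [e', e, smul_smul] at e''
        have e3 : (d * d - c * d + 1) • b = 0 := by
          rw [add_smul, sub_smul, one_smul, e'']; abel
        rcases smul_eq_zero.mp e3 with h' | h'
        · rw [e']
          have : d * d = 1 := by
            rw [hd] at h'
            linear_combination (-1 : F) * h'
          rw [this, one_smul]
        · rw [h', map_zero, map_zero]
    apply h1
    apply LinearMap.ext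
    intro v
    rw [Module.End.mul_apply, Module.End.one_apply]
    obtain ⟨z1, a1, hz1, ha1, rfl⟩ := hdec v
    rw [map_smul, map_smul, map_sub, map_sub, hz1, hz1, hinv _ ha1]
  obtain ⟨a, ha, hq⟩ := hex
  -- (v) the fixed part
  obtain ⟨v, hv⟩ : ∃ v, T v ≠ 0 := by
    by_contra hcon
    push Not at hcon
    exact h2 (LinearMap.ext hcon)
  obtain ⟨y, gy, hu⟩ : ∃ y, g y = y ∧ B (T v) y ≠ 0 := by
    by_contra hcon
    push Not at hcon
    apply hv
    apply h.nondeg.1
    intro u
    obtain ⟨z1, a1, hz1, ha1, rfl⟩ := hdec u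
    simp only [map_smul, map_sub, smul_eq_mul]
    rw [hcon z1 hz1, hperp' _ _ ha1 (hfix v), sub_zero, mul_zero]
  refine ⟨B a (g a), hq, fun α => ?_⟩
  obtain ⟨z, hz⟩ : ∃ z, z = T v := ⟨_, rfl⟩
  obtain ⟨z', hz'⟩ : ∃ z', z' = (-(B a (g a)) / B (T v) y) • y := ⟨_, rfl⟩
  have gz : g z = z := by rw [hz, hfix]
  have gz' : g z' = z' := by rw [hz', map_smul, gy]
  have hzz' : B z z' = - B a (g a) := by
    rw [hz, hz', map_smul, smul_eq_mul, div_mul_cancel₀ _ hu]
  have hz'z : B z' z = B a (g a) := by rw [hsk, hzz', neg_neg]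
  have hga : T (g a) = 0 := by rw [hTg, ha, map_zero]
  have f1 : B (g a) a = - B a (g a) := hsk _ _
  have f2 : B (g a) (g a) = 0 := h.alt _
  have f3 : B a a = 0 := h.alt _
  have f4 : B z z = 0 := h.alt _
  have f5 : B z' z' = 0 := h.alt _
  have p1 := hperp a z ha gz
  have p2 := hperp a z' ha gz'
  have p3 := hperp (g a) z hga gz
  have p4 := hperp (g a) z' hga gz'
  have p5 := hperp' a z ha gz
  have p6 := hperp' a z' ha gz'
  have p7 := hperp' (g a) z hga gz
  have p8 := hperp' (g a) z' hga gz'
  refine ⟨a + z, α • a + g a + z', ?_, ?_, ?_, ?_, ?_⟩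
  · simp only [map_add, map_smul, LinearMap.add_apply, LinearMap.smul_apply, smul_eq_mul,
      f1, f2, f3, f4, f5, p1, p2, p3, p4, p5, p6, p7, p8, hzz', hz'z]
    ring
  · simp only [map_add, map_smul, LinearMap.add_apply, LinearMap.smul_apply, smul_eq_mul,
      gz, gz', f1, f2, f3, f4, f5, p1, p2, p3, p4, p5, p6, p7, p8, hzz', hz'z]
    ring
  · simp only [map_add, map_smul, map_sub, LinearMap.add_apply, LinearMap.smul_apply,
      LinearMap.sub_apply, smul_eq_mul, hgg a ha,
      gz, gz', f1, f2, f3, f4, f5, p1, p2, p3, p4, p5, p6, p7, p8, hzz', hz'z]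
    ring
  · simp only [map_add, map_smul, LinearMap.add_apply, LinearMap.smul_apply, smul_eq_mul,
      gz, gz', f1, f2, f3, f4, f5, p1, p2, p3, p4, p5, p6, p7, p8, hzz', hz'z]
    ring
  · simp only [map_add, map_smul, map_sub, LinearMap.add_apply, LinearMap.smul_apply,
      LinearMap.sub_apply, smul_eq_mul, hgg a ha,
      gz, gz', f1, f2, f3, f4, f5, p1, p2, p3, p4, p5, p6, p7, p8, hzz', hz'z]
    ring

end Cfsg.Agent.H6.Sp4K6B
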