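import Mathlib
import Cfsg.Agent.H6.TitsDefs
import Cfsg.Agent.H6.TitsInvCheck
import Cfsg.Agent.H6.TitsFusTable

/-! Kernel-checked facts about the tables for the fused subgroups of the Tits group
(helper6). -/

set_option autoImplicit false

namespace Cfsg.Agent.H6.Tits

open Cfsg.Agent.H6.Ree3 (forceN allN)

/-- Apply a reversed list of words to a list of points. -/
def evL : List ℕ → List ℕ → List ℕ :=
  List.rec (fun xs => xs) (fun w _ ih xs => ih (wevL 6 w xs))

/-- Two lists of words give the same permutation (checked on the 52 selected points). -/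
def relChk (L1 L2 : List ℕ) : Bool := eqL (evL L1 dL) (evL L2 dL)

/-- All words have their letters among the generators of the subgroup of index two. -/
def kchk : List ℕ → Bool := List.rec true (fun w _ ih => wchk 9 38 0 6 w && ih)

/-- The list is empty. -/
def nilChk : List ℕ → Bool := List.rec true (fun _ _ _ => false)

/-- Repeat a list. -/
def repL : ℕ → List ℕ → List ℕ := fun k l => Nat.rec [] (fun _ ih => l ++ ih) k

/-- Certificate for a subgroup generated by two elements, with `m` elements, all of whose
non-identity elements are conjugate to the first generator. -/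
def chkFus (m : ℕ) (el cj : ℕ → List ℕ) (ma mb par : ℕ → ℕ) : Bool :=
  nilChk (el 0) && kchk (el 1) && kchk (el 2) &&
  (allN m fun t => forceN (ma t) fun u => forceN (mb t) fun v => Nat.blt u m && Nat.blt v m &&
    relChk (el t ++ el 1) (el u) && relChk (el t ++ el 2) (el v)) &&
  (allN m fun t => Nat.beq t 0 || forceN (par t) fun q =>
    Nat.blt q t && (Nat.beq (ma q) t || Nat.beq (mb q) t)) &&
  (allN m fun t => Nat.beq t 0 || (kchk (cj t) && relChk (el 1 ++ cj t) (cj t ++ el t))) &&
  (allN m fun t => allN m fun s =>
    Nat.beq t s || !(Nat.beq (evalR (el t) 0) (evalR (el s) 0)))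

/-- The subgroup of order 27. -/
def chkFusR : Bool :=
  chkFus 27 (fun t => rElT.getD t []) (fun t => rCjT.getD t []) (fun t => rMaT.getD t 0)
    (fun t => rMbT.getD t 0) (fun t => rParT.getD t 0)

/-- The subgroup of order 25. -/
def chkFusE : Bool :=
  chkFus 25 (fun t => eElT.getD t []) (fun t => eCjT.getD t []) (fun t => eMaT.getD t 0)
    (fun t => eMbT.getD t 0) (fun t => eParT.getD t 0)

/-- An element of order 13 normalized by an element of order 3. -/
def chk13 : Bool :=
  kchk yLT && kchk wLT && relChk (repL 13 yLT) [] && relChk (repL 3 wLT) [] &&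
  !(Nat.beq (evalR yLT 0) 0) && !(Nat.beq (evalR wLT 0) 0) &&
  relChk (yLT ++ wLT) (wLT ++ repL 3 yLT)

set_option maxRecDepth 100000 in
theorem chkFusR_true : chkFusR = true := by decide +kernel

set_option maxRecDepth 100000 in
theorem chkFusE_true : chkFusE = true := by decide +kernel

set_option maxRecDepth 100000 in
theorem chk13_true : chk13 = true := by decide +kernel

end Cfsg.Agent.H6.Tits
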