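import Mathlib
import Cfsg.Agent.H6.Ree3Check

/-! A group of order `2¹¹ · 3³ · 5² · 13` with a subgroup of order 27 and a subgroup of order 25
whose non-identity elements are all conjugate, and with an element of order 13 normalized by an
element of order 3, has no faithful doubly transitive action on a finite set with at least three
points (helper6). -/

set_option autoImplicit false

namespace Cfsg.Agent.H6.TwoTrans

open MulAction
open Cfsg.Agent.H6.Ree3 (allN allN_spec)

/-- A subgroup of order `m` all of whose non-identity elements are conjugate to a fixed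
non-identity element. -/
def HasFused (G : Type*) [Group G] (m : ℕ) : Prop :=
  ∃ A : Subgroup G, Nat.card A = m ∧ ∃ s : G, s ≠ 1 ∧ ∀ x ∈ A, x ≠ 1 → IsConj s x

/-- An element of order 13 normalized by an element of order 3. -/
def HasNorm13 (G : Type*) [Group G] : Prop :=
  ∃ y w : G, y ≠ 1 ∧ y ^ 13 = 1 ∧ w ≠ 1 ∧ w ^ 3 = 1 ∧ ∃ k : ℕ, w * y * w⁻¹ = y ^ k

theorem HasFused.of_equiv {G H : Type*} [Group G] [Group H] (e : G ≃* H) {m : ℕ}
    (h : HasFused G m) : HasFused H m := by
  obtain ⟨A, hA, s, hs, hconj⟩ := h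
  refine ⟨A.map e.toMonoidHom, ?_, e s, ?_, ?_⟩
  · rw [← hA]
    exact Nat.card_congr (A.equivMapOfInjective e.toMonoidHom e.injective).symm.toEquiv
  · intro h1
    exact hs (e.injective (by rw [h1, map_one]))
  · rintro _ ⟨x, hx, rfl⟩ hx1
    have hx' : x ≠ 1 := fun h => hx1 (by rw [h]; exact map_one e)
    exact MonoidHom.map_isConj e.toMonoidHom (hconj x hx hx')

theorem HasNorm13.of_equiv {G H : Type*} [Group G] [Group H] (e : G ≃* H)
    (h : HasNorm13 G) : HasNorm13 H := by
  obtain ⟨y, w, hy, hy13, hw, hw3, k, hk⟩ := h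
  refine ⟨e y, e w, ?_, ?_, ?_, ?_, k, ?_⟩
  · intro h1
    exact hy (e.injective (by rw [h1, map_one]))
  · rw [← map_pow, hy13, map_one]
  · intro h1
    exact hw (e.injective (by rw [h1, map_one]))
  · rw [← map_pow, hw3, map_one]
  · rw [← map_inv, ← map_mul, ← map_mul, hk, map_pow]

section Action

variable {G : Type*} [Group G] {Ω : Type*} [MulAction G Ω]

/-- Conjugate elements have the same number of fixed points. -/
theorem card_fixedBy_of_isConj {s x : G} (h : IsConj s x) :
    Nat.card (fixedBy Ω x) = Nat.card (fixedBy Ω s) := by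
  obtain ⟨c, hc⟩ := isConj_iff.mp h
  subst hc
  refine (Nat.card_congr ((MulAction.toPerm c).subtypeEquiv (fun ω => ?_))).symm
  simp only [mem_fixedBy, MulAction.toPerm_apply, mul_smul, inv_smul_smul]
  exact (smul_left_cancel_iff c).symm

variable [Finite G] [Fintype Ω]

/-- The sum of the numbers of fixed points over a subgroup whose non-identity elements are all
conjugate to `s`. -/
theorem sum_fixedBy_fused (A : Subgroup G) (s : G) (hconj : ∀ x ∈ A, x ≠ 1 → IsConj s x)
    [Fintype A] [∀ a : A, Fintype (fixedBy Ω a)] :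
    ∑ a : A, Fintype.card (fixedBy Ω a) =
      Fintype.card Ω + (Nat.card A - 1) * Nat.card (fixedBy Ω s) := by
  classical
  have h1 : ∀ a : A, Fintype.card (fixedBy Ω a) =
      if a = 1 then Fintype.card Ω else Nat.card (fixedBy Ω s) := by
    intro a
    split_ifs with ha
    · subst ha
      rw [← Nat.card_eq_fintype_card, ← Nat.card_eq_fintype_card]
      refine Nat.card_congr (Equiv.subtypeUnivEquiv (fun ω => ?_))
      exact one_smul _ ω
    · rw [← Nat.card_eq_fintype_card]
      have hne : (a : G) ≠ 1 := fun h => ha (Subtype.ext h)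
      exact card_fixedBy_of_isConj (Ω := Ω) (hconj a a.2 hne)
  simp only [h1]
  rw [Finset.sum_ite, Finset.filter_eq', if_pos (Finset.mem_univ _), Finset.sum_singleton,
    Finset.sum_const, Finset.filter_ne', Finset.card_erase_of_mem (Finset.mem_univ _),
    Finset.card_univ, smul_eq_mul, Nat.card_eq_fintype_card (α := A)]

/-- Burnside's lemma for a subgroup whose non-identity elements are all conjugate to `s`. -/
theorem burnside_fused (A : Subgroup G) (s : G) (hconj : ∀ x ∈ A, x ≠ 1 → IsConj s x) :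
    ∃ q : ℕ, Fintype.card Ω + (Nat.card A - 1) * Nat.card (fixedBy Ω s) = q * Nat.card A := by
  classical
  have : Fintype A := Fintype.ofFinite A
  have hB := MulAction.sum_card_fixedBy_eq_card_orbits_mul_card_group A Ω
  rw [sum_fixedBy_fused A s hconj] at hB
  exact ⟨_, by rw [hB, Nat.card_eq_fintype_card]⟩

/-- Double counting of the pairs (element, fixed point). -/
theorem sum_fixedBy_eq_sum_stabilizer (A : Subgroup G) [Fintype A]
    [∀ a : A, Fintype (fixedBy Ω a)] :
    ∑ a : A, Fintype.card (fixedBy Ω a) = ∑ ω : Ω, Nat.card (stabilizer A ω) := by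
  classical
  have h1 : ∀ a : A, Fintype.card (fixedBy Ω a) = ∑ ω : Ω, if a • ω = ω then 1 else 0 := by
    intro a
    rw [← Finset.card_filter, ← Fintype.card_subtype]
    exact Fintype.card_congr (Equiv.refl _)
  have h2 : ∀ ω : Ω, Nat.card (stabilizer A ω) = ∑ a : A, if a • ω = ω then 1 else 0 := by
    intro ω
    rw [← Finset.card_filter, ← Fintype.card_subtype, ← Nat.card_eq_fintype_card]
    exact Nat.card_congr (Equiv.refl _)
  simp only [h1, h2]
  exact Finset.sum_comm

/-- If a subgroup of order 25 whose non-identity elements are all conjugate to `s` fixes no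
point, then `s` has few fixed points. -/
theorem fused_le (A : Subgroup G) (s : G) (hA : Nat.card A = 25)
    (hconj : ∀ x ∈ A, x ≠ 1 → IsConj s x) (hfix : ∀ ω : Ω, ∃ x ∈ A, x • ω ≠ ω) :
    Fintype.card Ω + 24 * Nat.card (fixedBy Ω s) ≤ 5 * Fintype.card Ω := by
  classical
  have : Fintype A := Fintype.ofFinite A
  have h1 := sum_fixedBy_fused (Ω := Ω) A s hconj
  rw [hA] at h1
  rw [show 25 - 1 = 24 from rfl] at h1
  rw [← h1, sum_fixedBy_eq_sum_stabilizer]
  have h2 : ∀ ω : Ω, Nat.card (stabilizer A ω) ≤ 5 := by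
    intro ω
    have hdvd : Nat.card (stabilizer A ω) ∣ 25 := by
      rw [← hA]
      exact Subgroup.card_subgroup_dvd_card _
    have hne : Nat.card (stabilizer A ω) ≠ 25 := by
      intro h25
      have htop : stabilizer A ω = ⊤ := Subgroup.eq_top_of_card_eq _ (by rw [h25, hA])
      obtain ⟨x, hx, hxω⟩ := hfix ω
      apply hxω
      have hmem : (⟨x, hx⟩ : A) ∈ stabilizer A ω := by rw [htop]; exact Subgroup.mem_top _
      exact hmem
    have hle : Nat.card (stabilizer A ω) ≤ 25 := Nat.le_of_dvd (by norm_num) hdvd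
    generalize Nat.card (stabilizer A ω) = d at hdvd hne hle
    interval_cases d <;> omega
  calc ∑ ω : Ω, Nat.card (stabilizer A ω) ≤ ∑ _ω : Ω, 5 := Finset.sum_le_sum fun ω _ => h2 ω
    _ = 5 * Fintype.card Ω := by rw [Finset.sum_const, Finset.card_univ, smul_eq_mul, mul_comm]

end Action

/-- The possible degrees. -/
def candChk : Bool :=
  allN 4241 fun n => Nat.blt n 3 || !(Nat.beq (17971200 % (n * (n - 1))) 0) ||
    Nat.beq n 3 || Nat.beq n 4 || Nat.beq n 5 || Nat.beq n 6 || Nat.beq n 9 || Nat.beq n 10 ||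
    Nat.beq n 13 || Nat.beq n 16 || Nat.beq n 25 || Nat.beq n 26 || Nat.beq n 27 ||
    Nat.beq n 40 || Nat.beq n 65

set_option maxRecDepth 100000 in
theorem candChk_true : candChk = true := by decide +kernel

theorem cand_spec (n : ℕ) (h3 : 3 ≤ n) (hdvd : n * (n - 1) ∣ 17971200) :
    n = 3 ∨ n = 4 ∨ n = 5 ∨ n = 6 ∨ n = 9 ∨ n = 10 ∨ n = 13 ∨ n = 16 ∨ n = 25 ∨ n = 26 ∨
      n = 27 ∨ n = 40 ∨ n = 65 := by
  have hle : n * (n - 1) ≤ 17971200 := Nat.le_of_dvd (by norm_num) hdvd
  have hn : n < 4241 := by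
    by_contra hcon
    have h1 : 4241 ≤ n := by omega
    have h2 : 4240 ≤ n - 1 := by omega
    have h3 : 4241 * 4240 ≤ n * (n - 1) := Nat.mul_le_mul h1 h2
    omega
  have h := allN_spec candChk_true n hn
  have hmod : 17971200 % (n * (n - 1)) = 0 := Nat.mod_eq_zero_of_dvd hdvd
  rw [hmod] at h
  have hblt : Nat.blt n 3 = false := by
    rw [← Bool.not_eq_true, Nat.blt_eq]
    omega
  rw [hblt] at h
  have e0 : Nat.beq 0 0 = true := rfl
  rw [e0] at h
  simp only [Bool.not_true, Bool.false_or, Bool.or_eq_true, Nat.beq_eq] at h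
  omega


section Main

variable {G : Type*} [Group G] [Finite G] {Ω : Type*} [Fintype Ω] [MulAction G Ω]
  [FaithfulSMul G Ω]

omit [Finite G] in
/-- A non-identity element moves a point. -/
theorem exists_smul_ne {s : G} (hs : s ≠ 1) : ∃ ω : Ω, s • ω ≠ ω := by
  by_contra hcon
  push_neg at hcon
  exact hs (FaithfulSMul.eq_of_smul_eq_smul (α := Ω) (fun ω => by rw [hcon ω, one_smul]))

omit [Finite G] in
/-- A non-identity element has fewer fixed points than there are points. -/
theorem card_fixedBy_lt {s : G} (hs : s ≠ 1) : Nat.card (fixedBy Ω s) < Fintype.card Ω := by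
  obtain ⟨ω, hω⟩ := exists_smul_ne (Ω := Ω) hs
  rw [← Nat.card_eq_fintype_card]
  exact Finite.card_subtype_lt (p := fun ω => ω ∈ fixedBy Ω s) hω

omit [FaithfulSMul G Ω] in
theorem card_stabilizer_mul [IsPretransitive G Ω] (ω : Ω) :
    Nat.card (stabilizer G ω) * Fintype.card Ω = Nat.card G := by
  rw [← Nat.card_eq_fintype_card, ← index_stabilizer_of_transitive G ω]
  exact Subgroup.card_mul_index _

/-- The case of degree 27. -/
theorem case27 (h13 : HasNorm13 G) (hn : Fintype.card Ω = 27)
    (hstab : ∀ ω : Ω, Nat.card (stabilizer G ω) * 27 = 17971200) : False := by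
  classical
  obtain ⟨y, w, hy, hy13, hw, hw3, k, hk⟩ := h13
  set σ : Equiv.Perm Ω := MulAction.toPerm y with hσ
  set τ : Equiv.Perm Ω := MulAction.toPerm w⁻¹ with hτ
  have hσ13 : σ ^ 13 ^ 1 = 1 := by
    have e : σ = MulAction.toPermHom G Ω y := rfl
    rw [pow_one, e, ← map_pow, hy13, map_one]
  have hτ3 : τ ^ 3 ^ 1 = 1 := by
    have e : τ = MulAction.toPermHom G Ω w⁻¹ := rfl
    rw [pow_one, e, ← map_pow, inv_pow, hw3, inv_one, map_one]
  have hp13 : Fact (Nat.Prime 13) := ⟨by norm_num⟩
  have hp3 : Fact (Nat.Prime 3) := ⟨by norm_num⟩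
  have hmod := Equiv.Perm.card_compl_support_modEq hσ13
  set F : Finset Ω := σ.supportᶜ with hF
  have hmemF : ∀ ω, ω ∈ F ↔ y • ω = ω := by
    intro ω
    rw [hF, Finset.mem_compl, Equiv.Perm.mem_support, not_not]
    rfl
  have hFlt : F.card < 27 := by
    obtain ⟨ω, hω⟩ := exists_smul_ne (Ω := Ω) hy
    have hss : F ⊂ Finset.univ := by
      rw [Finset.ssubset_univ_iff]
      intro h
      exact hω ((hmemF ω).mp (h ▸ Finset.mem_univ ω))
    have hlt := Finset.card_lt_card hss
    rwa [Finset.card_univ, hn] at hlt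
  have hF3 : ¬ 3 ∣ F.card := by
    have h1 : F.card % 13 = 27 % 13 := by
      rw [hn] at hmod
      exact hmod
    omega
  have hpow : ∀ (j : ℕ) (ω : Ω), y • ω = ω → y ^ j • ω = ω := by
    intro j ω hω
    induction j with
    | zero => rw [pow_zero, one_smul]
    | succ j ih => rw [pow_succ, mul_smul, hω, ih]
  have hfwd : ∀ ω, ω ∈ F → τ ω ∈ F := by
    intro ω hω
    rw [hmemF] at hω ⊢
    have h2 : y * w⁻¹ = w⁻¹ * y ^ k := by rw [← hk]; group
    show y • (w⁻¹ • ω) = w⁻¹ • ω
    rw [← mul_smul, h2, mul_smul, hpow k ω hω]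
  have hiff : ∀ ω, τ ω ∈ F ↔ ω ∈ F := by
    intro ω
    constructor
    · intro h
      have h3 := hfwd _ (hfwd _ h)
      have e : τ (τ (τ ω)) = ω := by
        have h4 := congrArg (fun π : Equiv.Perm Ω => π ω) hτ3
        simpa [pow_succ] using h4
      rwa [e] at h3
    · exact hfwd ω
  have hρ3 : (τ.subtypePerm hiff) ^ 3 ^ 1 = 1 := by
    rw [Equiv.Perm.subtypePerm_pow]
    ext ⟨ω, hω⟩
    simp only [Equiv.Perm.subtypePerm_apply, Equiv.Perm.coe_one, id_eq]
    exact congrArg (fun π : Equiv.Perm Ω => π ω) hτ3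
  obtain ⟨⟨ω, hωF⟩, hfixed⟩ := Equiv.Perm.exists_fixed_point_of_prime (p := 3) (n := 1)
    (by rw [Fintype.card_coe]; exact hF3) hρ3
  have hwω : w • ω = ω := by
    have h1 : w⁻¹ • ω = ω := congrArg Subtype.val hfixed
    rw [inv_smul_eq_iff] at h1
    exact h1.symm
  have hmem : w ∈ stabilizer G ω := hwω
  have hord : orderOf w = 3 := orderOf_eq_prime hw3 hw
  have hdvd : 3 ∣ Nat.card (stabilizer G ω) := by
    have h1 := orderOf_dvd_natCard (⟨w, hmem⟩ : stabilizer G ω)
    rwa [Subgroup.orderOf_mk, hord] at h1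
  have h5 := hstab ω
  omega

/-- A group of order `2¹¹ · 3³ · 5² · 13` with subgroups of orders 27 and 25 whose non-identity
elements are all conjugate, and with an element of order 13 normalized by an element of order
3, has no faithful doubly transitive action on a finite set with at least three points. -/
theorem no_two_trans (hcard : Nat.card G = 17971200) (h27 : HasFused G 27) (h25 : HasFused G 25)
    (h13 : HasNorm13 G) (hΩ : 3 ≤ Fintype.card Ω) : ¬ IsMultiplyPretransitive G Ω 2 := by
  intro h2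
  classical
  have htr : IsPretransitive G Ω := isPretransitive_of_is_two_pretransitive
  have hn : Nat.card Ω = Fintype.card Ω := Nat.card_eq_fintype_card
  have hdiv : Fintype.card Ω * (Fintype.card Ω - 1) ∣ 17971200 := by
    obtain ⟨a, b, hab⟩ : ∃ a b : Ω, a ≠ b :=
      Fintype.exists_pair_of_one_lt_card (by omega)
    have hs : ({a, b} : Set Ω).ncard = 2 := Set.ncard_pair hab
    have hidx := IsMultiplyPretransitive.index_of_fixingSubgroup_eq (G := G) ({a, b} : Set Ω)
      (by rw [hs]; exact h2)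
    rw [hs, hn] at hidx
    have hd := Subgroup.index_dvd_card (fixingSubgroup G ({a, b} : Set Ω))
    rw [hidx, hcard, Nat.choose_two_right] at hd
    have heven : 2 ∣ Fintype.card Ω * (Fintype.card Ω - 1) :=
      (Nat.even_mul_pred_self _).two_dvd
    rw [show Nat.factorial 2 = 2 from rfl, Nat.div_mul_cancel heven] at hd
    exact hd
  have hstab : ∀ ω : Ω, Nat.card (stabilizer G ω) * Fintype.card Ω = 17971200 := fun ω => by
    rw [card_stabilizer_mul, hcard]
  have hfact : 17971200 ∣ (Fintype.card Ω).factorial := by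
    have h := Subgroup.card_dvd_of_injective (MulAction.toPermHom G Ω) MulAction.toPerm_injective
    rwa [hcard, Nat.card_eq_fintype_card, Fintype.card_perm] at h
  obtain ⟨R, hR, a, ha, hRc⟩ := h27
  obtain ⟨E, hE, s, hs, hEc⟩ := h25
  obtain ⟨qR, hqR⟩ := burnside_fused (Ω := Ω) R a hRc
  obtain ⟨qE, hqE⟩ := burnside_fused (Ω := Ω) E s hEc
  rw [hR] at hqR
  rw [hE] at hqE
  have hfa := card_fixedBy_lt (Ω := Ω) ha
  have hfs := card_fixedBy_lt (Ω := Ω) hs
  have hEfix : (∀ ω : Ω, ¬ 25 ∣ Nat.card (stabilizer G ω)) → ∀ ω : Ω, ∃ x ∈ E, x • ω ≠ ω := by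
    intro h25 ω
    by_contra hcon
    push_neg at hcon
    apply h25 ω
    have hle : E ≤ stabilizer G ω := fun x hx => hcon x hx
    rw [← hE]
    exact Subgroup.card_dvd_of_le hle
  rcases cand_spec _ hΩ hdiv with h | h | h | h | h | h | h | h | h | h | h | h | h
  all_goals rw [h] at hfact hqR hqE hfa hfs hstab
  · exact absurd hfact (by decide)
  · exact absurd hfact (by decide)
  · exact absurd hfact (by decide)
  · exact absurd hfact (by decide)
  · exact absurd hfact (by decide)
  · exact absurd hfact (by decide)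
  · exact absurd hfact (by decide)
  · omega
  · omega
  · omega
  · exact case27 h13 h hstab
  · have hle := fused_le (Ω := Ω) E s hE hEc (hEfix fun ω h25 => by have := hstab ω; omega)
    rw [h] at hle
    omega
  · have hle := fused_le (Ω := Ω) E s hE hEc (hEfix fun ω h25 => by have := hstab ω; omega)
    rw [h] at hle
    omega

end Main

end Cfsg.Agent.H6.TwoTrans
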