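import Mathlib
import Cfsg.Agent.H6.Tits
import Cfsg.Agent.H6.TitsInv
import Cfsg.Agent.H6.TitsFusCheck
import Cfsg.Agent.H6.TwoTrans

/-! The Tits group has subgroups of orders 27 and 25 whose non-identity elements are all
conjugate, and an element of order 13 normalized by an element of order 3; hence it has no
faithful doubly transitive action (helper6). -/

set_option autoImplicit false

namespace Cfsg.Agent.H6.Tits

open Cfsg Cfsg.Lie Matrix
open Cfsg.Agent.H6.Ree3 (forceN allN allN_spec allN_intro forceN_eq)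
open Cfsg.Agent.H6.TwoTrans (HasFused HasNorm13)

theorem evL_cons (w : ℕ) (ws xs : List ℕ) : evL (w :: ws) xs = evL ws (wevL 6 w xs) := rfl

theorem evL_eq : ∀ (ws : List ℕ) (xs : List ℕ), evL ws xs = xs.map (evalR ws)
  | [], xs => by
    show xs = xs.map (fun x => x)
    rw [List.map_id']
  | w :: ws, xs => by
    rw [evL_cons, evL_eq ws, wevL_eq, List.map_map]
    apply List.map_congr_left
    intro x _
    rw [Function.comp_apply, evalR_cons]

theorem rperm_nil : rperm [] = 1 := rfl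

theorem rperm_cons (w : ℕ) (ws : List ℕ) : rperm (w :: ws) = rperm ws * wperm 6 w := rfl

theorem rperm_append (l1 l2 : List ℕ) : rperm (l1 ++ l2) = rperm l2 * rperm l1 := by
  induction l1 with
  | nil => rw [List.nil_append, rperm_nil, mul_one]
  | cons w ws ih => rw [List.cons_append, rperm_cons, rperm_cons, ih, mul_assoc]

theorem rperm_mem_P (ws : List ℕ) : rperm ws ∈ P := by
  induction ws with
  | nil => exact P.one_mem
  | cons w ws ih => exact P.mul_mem ih (wperm_mem_P _ _)

theorem kchk_cons (w : ℕ) (ws : List ℕ) : kchk (w :: ws) = (wchk 9 38 0 6 w && kchk ws) := rfl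

theorem rperm_mem_K : ∀ (ws : List ℕ), kchk ws = true → rperm ws ∈ K
  | [], _ => K.one_mem
  | w :: ws, h => by
    rw [kchk_cons, Bool.and_eq_true] at h
    exact K.mul_mem (rperm_mem_K ws h.2) (wperm_mem_K _ _ h.1)

theorem rel_spec (L1 L2 : List ℕ) (h : relChk L1 L2 = true) : rperm L1 = rperm L2 := by
  have e := eqL_eq _ _ h
  rw [evL_eq, evL_eq] at e
  exact rel_of_list (rperm_mem_P L1) (rperm_mem_P L2) (evalR L1) (evalR L2)
    (fun x => rperm_val L1 x) (fun x => rperm_val L2 x) e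

theorem nilChk_spec : ∀ l : List ℕ, nilChk l = true → l = []
  | [], _ => rfl
  | _ :: _, h => by
    have h' : false = true := h
    exact absurd h' (by decide)

theorem repL_succ (k : ℕ) (l : List ℕ) : repL (k + 1) l = l ++ repL k l := rfl

theorem rperm_repL (k : ℕ) (l : List ℕ) : rperm (repL k l) = rperm l ^ k := by
  induction k with
  | zero => rfl
  | succ k ih => rw [repL_succ, rperm_append, ih, pow_succ]

/-- A certified subgroup of order `m` of the subgroup of index two, all of whose non-identity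
elements are conjugate (in the subgroup of index two) to a non-identity element. -/
theorem fus_spec (m : ℕ) (el cj : ℕ → List ℕ) (ma mb par : ℕ → ℕ) (hm : 2 ≤ m)
    (h : chkFus m el cj ma mb par = true) :
    ∃ A : Subgroup (Equiv.Perm (Fin 1755)), A ≤ K ∧ Nat.card A = m ∧
      ∃ s ∈ K, s ≠ 1 ∧ ∀ x ∈ A, x ≠ 1 → ∃ g ∈ K, g * s * g⁻¹ = x := by
  unfold chkFus at h
  simp only [Bool.and_eq_true] at h
  obtain ⟨⟨⟨⟨⟨⟨h0, hka⟩, hkb⟩, hmul⟩, hpar⟩, hcj⟩, hinj⟩ := h
  set r : ℕ → Equiv.Perm (Fin 1755) := fun t => rperm (el t) with hr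
  have hr0 : r 0 = 1 := by
    show rperm (el 0) = 1
    rw [nilChk_spec _ h0]
    rfl
  have haK : r 1 ∈ K := rperm_mem_K _ hka
  have hbK : r 2 ∈ K := rperm_mem_K _ hkb
  have hmul' : ∀ t < m, ma t < m ∧ mb t < m ∧ r 1 * r t = r (ma t) ∧ r 2 * r t = r (mb t) := by
    intro t ht
    have h1 := allN_spec hmul t ht
    rw [forceN_eq, forceN_eq] at h1
    simp only [Bool.and_eq_true, Nat.blt_eq] at h1
    obtain ⟨⟨⟨h1a, h1b⟩, h1c⟩, h1d⟩ := h1
    refine ⟨h1a, h1b, ?_, ?_⟩
    · have e := rel_spec _ _ h1c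
      rw [rperm_append] at e
      exact e
    · have e := rel_spec _ _ h1d
      rw [rperm_append] at e
      exact e
  have hpar' : ∀ t < m, t ≠ 0 → par t < t ∧ (ma (par t) = t ∨ mb (par t) = t) := by
    intro t ht ht0
    have h1 := allN_spec hpar t ht
    rw [Bool.or_eq_true] at h1
    rcases h1 with h1 | h1
    · exact absurd (Nat.eq_of_beq_eq_true h1) ht0
    · rw [forceN_eq] at h1
      simp only [Bool.and_eq_true, Bool.or_eq_true, Nat.blt_eq, Nat.beq_eq] at h1
      exact h1
  have hcj' : ∀ t < m, t ≠ 0 → rperm (cj t) ∈ K ∧ rperm (cj t) * r 1 = r t * rperm (cj t) := by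
    intro t ht ht0
    have h1 := allN_spec hcj t ht
    rw [Bool.or_eq_true] at h1
    rcases h1 with h1 | h1
    · exact absurd (Nat.eq_of_beq_eq_true h1) ht0
    · rw [Bool.and_eq_true] at h1
      refine ⟨rperm_mem_K _ h1.1, ?_⟩
      have e := rel_spec _ _ h1.2
      rw [rperm_append, rperm_append] at e
      exact e
  have hinj' : ∀ t < m, ∀ s < m, r t = r s → t = s := by
    intro t ht s hs hts
    have h1 := allN_spec (allN_spec hinj t ht) s hs
    rw [Bool.or_eq_true] at h1
    rcases h1 with h1 | h1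
    · exact Nat.eq_of_beq_eq_true h1
    · exfalso
      have e1 := rperm_val (el t) ⟨0, by norm_num⟩
      have e2 := rperm_val (el s) ⟨0, by norm_num⟩
      have e3 : evalR (el t) 0 = evalR (el s) 0 := by
        rw [← e1, ← e2]
        show ((r t) _).val = ((r s) _).val
        rw [hts]
      rw [e3] at h1
      have e4 : Nat.beq (evalR (el s) 0) (evalR (el s) 0) = true := Nat.beq_refl _
      rw [e4] at h1
      exact absurd h1 (by decide)
  have hsub : ∀ x ∈ Subgroup.closure ({r 1, r 2} : Set (Equiv.Perm (Fin 1755))),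
      x ∈ {x : Equiv.Perm (Fin 1755) | ∃ t < m, x = r t} := by
    refine SS.closure_subset_of_mul_mem _ _ ⟨0, by omega, hr0.symm⟩ ?_
    rintro s hs x ⟨t, ht, rfl⟩
    obtain ⟨h1, h2, h3, h4⟩ := hmul' t ht
    rcases hs with rfl | hs
    · exact ⟨ma t, h1, h3⟩
    · rw [Set.mem_singleton_iff] at hs
      subst hs
      exact ⟨mb t, h2, h4⟩
  have hmem : ∀ t, t < m → r t ∈ Subgroup.closure ({r 1, r 2} : Set (Equiv.Perm (Fin 1755))) := by
    intro t
    induction t using Nat.strong_induction_on with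
    | _ t ih =>
      intro ht
      by_cases ht0 : t = 0
      · rw [ht0, hr0]
        exact Subgroup.one_mem _
      · obtain ⟨hq, hq'⟩ := hpar' t ht ht0
        have hqm : par t < m := by omega
        obtain ⟨_, _, h3, h4⟩ := hmul' (par t) hqm
        have hprev := ih (par t) hq hqm
        rcases hq' with hq' | hq'
        · rw [← hq', ← h3]
          exact Subgroup.mul_mem _ (Subgroup.subset_closure (by simp)) hprev
        · rw [← hq', ← h4]
          exact Subgroup.mul_mem _ (Subgroup.subset_closure (by simp)) hprev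
  refine ⟨Subgroup.closure {r 1, r 2}, ?_, ?_, r 1, haK, ?_, ?_⟩
  · rw [Subgroup.closure_le]
    rintro x (rfl | hx)
    · exact haK
    · rw [Set.mem_singleton_iff] at hx
      rw [hx]
      exact hbK
  · have e : Fin m ≃ Subgroup.closure ({r 1, r 2} : Set (Equiv.Perm (Fin 1755))) :=
      Equiv.ofBijective (fun t => ⟨r t.val, hmem t.val t.isLt⟩) ⟨fun t s hts =>
        Fin.ext (hinj' t.val t.isLt s.val s.isLt (congrArg Subtype.val hts)), fun x => by
          obtain ⟨t, ht, hx⟩ := hsub x.1 x.2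
          exact ⟨⟨t, ht⟩, Subtype.ext hx.symm⟩⟩
    rw [← Nat.card_congr e, Nat.card_fin]
  · intro h1
    have := hinj' 1 (by omega) 0 (by omega) (by rw [h1, hr0])
    omega
  · intro x hx hx1
    obtain ⟨t, ht, rfl⟩ := hsub x hx
    have ht0 : t ≠ 0 := by
      intro h0
      apply hx1
      rw [h0, hr0]
    obtain ⟨hgK, hg⟩ := hcj' t ht ht0
    exact ⟨rperm (cj t), hgK, by rw [hg, mul_inv_cancel_right]⟩

/-- Transfer of a certified subgroup to the subgroup of index two as a group. -/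
theorem hasFused_of_spec {m : ℕ}
    (h : ∃ A : Subgroup (Equiv.Perm (Fin 1755)), A ≤ K ∧ Nat.card A = m ∧
      ∃ s ∈ K, s ≠ 1 ∧ ∀ x ∈ A, x ≠ 1 → ∃ g ∈ K, g * s * g⁻¹ = x) : HasFused ↥K m := by
  obtain ⟨A, hAK, hA, s, hsK, hs1, hconj⟩ := h
  refine ⟨A.subgroupOf K, ?_, ⟨s, hsK⟩, ?_, ?_⟩
  · rw [← hA]
    exact Nat.card_congr (Subgroup.subgroupOfEquivOfLe hAK).toEquiv
  · intro h1
    exact hs1 (congrArg Subtype.val h1)
  · intro x hx hx1
    have hxA : (x : Equiv.Perm (Fin 1755)) ∈ A := Subgroup.mem_subgroupOf.mp hx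
    have hx1' : (x : Equiv.Perm (Fin 1755)) ≠ 1 := fun h1 => hx1 (Subtype.ext h1)
    obtain ⟨g, hgK, hg⟩ := hconj x hxA hx1'
    rw [isConj_iff]
    exact ⟨⟨g, hgK⟩, Subtype.ext hg⟩

theorem hasFused_27 : HasFused ↥K 27 :=
  hasFused_of_spec (fus_spec 27 _ _ _ _ _ (by norm_num) chkFusR_true)

theorem hasFused_25 : HasFused ↥K 25 :=
  hasFused_of_spec (fus_spec 25 _ _ _ _ _ (by norm_num) chkFusE_true)

theorem hasNorm13 : HasNorm13 ↥K := by
  have h := chk13_true
  unfold chk13 at h
  simp only [Bool.and_eq_true] at h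
  obtain ⟨⟨⟨⟨⟨⟨hky, hkw⟩, hy13⟩, hw3⟩, hy1⟩, hw1⟩, hrel⟩ := h
  have e13 := rel_spec _ _ hy13
  have e3 := rel_spec _ _ hw3
  have erel := rel_spec _ _ hrel
  rw [rperm_repL, rperm_nil] at e13 e3
  rw [rperm_append, rperm_append, rperm_repL] at erel
  have hne : ∀ l : List ℕ, (!(Nat.beq (evalR l 0) 0)) = true → rperm l ≠ 1 := by
    intro l hl h1
    have e1 := rperm_val l ⟨0, by norm_num⟩
    rw [h1] at e1
    have e2 : evalR l 0 = 0 := e1.symm
    rw [e2] at hl
    exact absurd hl (by decide)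
  refine ⟨⟨rperm yLT, rperm_mem_K _ hky⟩, ⟨rperm wLT, rperm_mem_K _ hkw⟩, ?_, ?_, ?_, ?_, 3, ?_⟩
  · intro h1
    exact hne _ hy1 (congrArg Subtype.val h1)
  · exact Subtype.ext e13
  · intro h1
    exact hne _ hw1 (congrArg Subtype.val h1)
  · exact Subtype.ext e3
  · apply Subtype.ext
    show rperm wLT * rperm yLT * (rperm wLT)⁻¹ = rperm yLT ^ 3
    rw [erel, mul_inv_cancel_right]

end Cfsg.Agent.H6.Tits
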