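import Mathlib
import Cfsg.Agent.H6.TitsFus

/-! The Tits group has no faithful doubly transitive action on a finite set with at least three
points (helper6). -/

set_option autoImplicit false

namespace Cfsg.Agent.H6.Tits

open Cfsg Cfsg.Lie

/-- The statement for an abstract group with a faithful permutation representation with image
`P`. -/
theorem no_two_trans_of_hom {G : Type*} [Group G] (φ : G →* Equiv.Perm (Fin 1755))
    (hinj : Function.Injective φ) (hrange : φ.range = P)
    {Ω : Type*} [Fintype Ω] [MulAction (commutator G) Ω] [FaithfulSMul (commutator G) Ω]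
    (hΩ : 3 ≤ Fintype.card Ω) :
    ¬ MulAction.IsMultiplyPretransitive (commutator G) Ω 2 := by
  obtain ⟨e⟩ := VecPerm.nonempty_commutator_equiv φ hinj
  have hc : ⁅φ.range, φ.range⁆ = K := by
    rw [hrange]
    exact comm_P_eq
  let e' : commutator G ≃* ↥K := e.trans (MulEquiv.subgroupCongr hc)
  have hfin : Finite (commutator G) := Finite.of_equiv _ e'.symm.toEquiv
  have hcard : Nat.card (commutator G) = 17971200 := by
    rw [Nat.card_congr e'.toEquiv, card_K]
  exact TwoTrans.no_two_trans hcard (hasFused_27.of_equiv e'.symm) (hasFused_25.of_equiv e'.symm)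
    (hasNorm13.of_equiv e'.symm) hΩ

set_option maxRecDepth 100000 in
/-- The Tits group has no faithful doubly transitive action on a finite set with at least three
points. -/
theorem tits_no_two_trans {Ω : Type*} [Fintype Ω] [MulAction TitsGroup Ω]
    [FaithfulSMul TitsGroup Ω] (hΩ : 3 ≤ Fintype.card Ω) :
    ¬ MulAction.IsMultiplyPretransitive TitsGroup Ω 2 := by
  obtain ⟨φ, hinj, hrange, _⟩ := main_hom
  exact no_two_trans_of_hom φ hinj hrange hΩ

end Cfsg.Agent.H6.Tits
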